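import Mathlib

/-! The deleted permutation module `F^(N+1) / ⟨1⟩` of the symmetric group. -/

set_option autoImplicit false

namespace Cfsg.Agent.H11

variable {F : Type*} [Field F] {N : ℕ}

/-- The action of `S_(N+1)` on `F^(N+1) / ⟨1⟩`, in the coordinates `1, …, N`. -/
def delRep (F : Type*) [Field F] (N : ℕ) : Equiv.Perm (Fin (N + 1)) →* Module.End F (Fin N → F) where
  toFun σ :=
    { toFun v i := (Fin.cons 0 v : Fin (N + 1) → F) (σ⁻¹ i.succ) - (Fin.cons 0 v : Fin (N + 1) → F) (σ⁻¹ 0)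
      map_add' u v := by
        have : ∀ a, (Fin.cons 0 (u + v) : Fin (N + 1) → F) a =
            (Fin.cons 0 u : Fin (N + 1) → F) a + (Fin.cons 0 v : Fin (N + 1) → F) a :=
          fun a => by induction a using Fin.cases <;> simp
        ext i; simp only [this, Pi.add_apply]; ring
      map_smul' c v := by
        have : ∀ a, (Fin.cons 0 (c • v) : Fin (N + 1) → F) a = c * (Fin.cons 0 v : Fin (N + 1) → F) a :=
          fun a => by induction a using Fin.cases <;> simp
        ext i; simp only [this, Pi.smul_apply, smul_eq_mul, RingHom.id_apply]; ring }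
  map_one' := LinearMap.ext fun v => funext fun i => by simp
  map_mul' σ τ := LinearMap.ext fun v => funext fun i => by
    have : ∀ a, (Fin.cons 0 (fun i : Fin N => (Fin.cons 0 v : Fin (N + 1) → F) (τ⁻¹ i.succ) -
        (Fin.cons 0 v : Fin (N + 1) → F) (τ⁻¹ 0)) : Fin (N + 1) → F) a =
        (Fin.cons 0 v : Fin (N + 1) → F) (τ⁻¹ a) - (Fin.cons 0 v : Fin (N + 1) → F) (τ⁻¹ 0) :=
      fun a => by induction a using Fin.cases <;> simp
    simp only [Module.End.mul_apply, LinearMap.coe_mk, AddHom.coe_mk, this, mul_inv_rev,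
      Equiv.Perm.mul_apply]
    ring

theorem cons_delRep (σ : Equiv.Perm (Fin (N + 1))) (v : Fin N → F) (a : Fin (N + 1)) :
    (Fin.cons 0 (delRep F N σ v) : Fin (N + 1) → F) a =
      (Fin.cons 0 v : Fin (N + 1) → F) (σ⁻¹ a) - (Fin.cons 0 v : Fin (N + 1) → F) (σ⁻¹ 0) := by
  induction a using Fin.cases
  · simp
  · rfl

theorem eq_one_of_delRep (hN : 4 ≤ N) {σ : Equiv.Perm (Fin (N + 1))} {c : F}
    (h : ∀ i j, delRep F N σ (Pi.single i 1 - Pi.single j 1) = c • (Pi.single i 1 - Pi.single j 1)) :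
    σ = 1 := by
  have h1 : ∀ i j : Fin N, i ≠ j → σ i.succ = i.succ ∨ σ i.succ = j.succ := fun i j hij => by
    have w : ∀ a, (Fin.cons 0 (Pi.single i 1 - Pi.single j 1) : Fin (N + 1) → F) a =
        (if a = i.succ then 1 else 0) - if a = j.succ then 1 else 0 := fun a => by
      induction a using Fin.cases
      · simp [(Fin.succ_ne_zero _).symm]
      · simp [Pi.single_apply]
    have e : ∀ a, (Fin.cons 0 (c • (Pi.single i 1 - Pi.single j 1)) : Fin (N + 1) → F) a =
        c * (Fin.cons 0 (Pi.single i 1 - Pi.single j 1) : Fin (N + 1) → F) a := fun a => by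
      induction a using Fin.cases <;> simp [mul_sub]
    have t := fun a => (cons_delRep σ _ a).symm.trans ((congrArg (fun x =>
      (Fin.cons 0 x : Fin (N + 1) → F) a) (h i j)).trans (e a))
    obtain ⟨a, ha⟩ : ∃ a, a ∉ ({i.succ, j.succ, σ i.succ, σ j.succ} : Finset (Fin (N + 1))) := by
      by_contra! b
      have := (Finset.card_le_card fun a (_ : a ∈ Finset.univ) => b a).trans Finset.card_le_four
      simp at this; omega
    simp only [Finset.mem_insert, Finset.mem_singleton, not_or] at ha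
    have t1 := t a
    have t2 := t (σ i.succ)
    rw [w a, w (σ⁻¹ a)] at t1
    simp only [Equiv.Perm.inv_eq_iff_eq, ha, if_false, sub_self, mul_zero, zero_sub,
      neg_eq_zero] at t1
    rw [t1, w, w] at t2
    by_contra! b
    simp [b, hij] at t2
  have h2 : ∀ i : Fin N, σ i.succ = i.succ := fun i => by
    obtain ⟨j, k, hj, hk, hjk⟩ : ∃ j k : Fin N, i ≠ j ∧ i ≠ k ∧ j ≠ k := by
      obtain ⟨j, k, l, a, b, c⟩ := Fintype.two_lt_card_iff.1 (show 2 < Fintype.card (Fin N) by
        simp; omega)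
      by_cases e : i = j
      · exact ⟨k, l, e ▸ a, e ▸ b, c⟩
      by_cases e' : i = k
      · exact ⟨j, l, e, e' ▸ c, b⟩
      · exact ⟨j, k, e, e', a⟩
    by_contra a
    exact hjk (Fin.succ_injective _ (((h1 i j hj).resolve_left a).symm.trans
      ((h1 i k hk).resolve_left a)))
  ext a
  induction a using Fin.cases with
  | succ i => rw [h2]; rfl
  | zero =>
    rcases Fin.eq_zero_or_eq_succ (σ 0) with e | ⟨j, e⟩
    · rw [e]; rfl
    · exact absurd (σ.injective (e.trans (h2 j).symm)) (Fin.succ_ne_zero j).symm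

theorem dot_delRep (hN : ((N + 1 : ℕ) : F) = 0) (σ : Equiv.Perm (Fin (N + 1))) {u v : Fin N → F}
    (hu : ∑ i, u i = 0) (hv : ∑ i, v i = 0) :
    ∑ i, delRep F N σ u i = 0 ∧ delRep F N σ u ⬝ᵥ delRep F N σ v = u ⬝ᵥ v := by
  have s : ∀ x : Fin N → F, ∑ i, x i = ∑ a, (Fin.cons 0 x : Fin (N + 1) → F) a := fun x => by
    simp [Fin.sum_univ_succ]
  have d : ∀ x y : Fin N → F, x ⬝ᵥ y = ∑ a, (Fin.cons 0 x : Fin (N + 1) → F) a *
      (Fin.cons 0 y : Fin (N + 1) → F) a := fun x y => by simp [Fin.sum_univ_succ, dotProduct]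
  rw [s] at hu hv
  rw [s, d, d, ← Equiv.sum_comp σ⁻¹ fun a => (Fin.cons 0 u : Fin (N + 1) → F) a * _]
  rw [← Equiv.sum_comp σ⁻¹] at hu hv
  simp only [cons_delRep, sub_mul, mul_sub, Finset.sum_sub_distrib, ← Finset.sum_mul,
    ← Finset.mul_sum, hu, hv, Finset.sum_const, Finset.card_univ, Fintype.card_fin, nsmul_eq_mul, hN]
  simp

end Cfsg.Agent.H11
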