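import Cfsg.Agent.H11.FxDef

set_option autoImplicit false

/-! Fixed spaces on modules for `SL₂(11)` in characteristic `11`: a certificate in the group ring. -/

namespace Cfsg.Agent.H11.Fx

open Module LinearMap Matrix

variable {K V : Type*} [Field K] [AddCommGroup V] [Module K V]

theorem finrank_step [FiniteDimensional K V] (W A : Submodule K V) (C : End K V)
    (h : ∀ v ∈ W, C v ∈ A) : finrank K W ≤ finrank K ↥(W ⊓ ker C) + finrank K A := by
  have h1 := finrank_range_add_finrank_ker (C.domRestrict W)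
  have h2 : finrank K (range (C.domRestrict W)) ≤ finrank K A := by
    refine Submodule.finrank_mono ?_
    rintro _ ⟨⟨v, hv⟩, rfl⟩
    exact h v hv
  have h3 : finrank K (ker (C.domRestrict W)) ≤ finrank K ↥(W ⊓ ker C) := by
    rw [← Submodule.finrank_map_subtype_eq]
    refine Submodule.finrank_mono ?_
    rintro _ ⟨⟨v, hv⟩, h, rfl⟩
    exact ⟨hv, h⟩
  omega

/-- `SL₂(11)` -/
abbrev G11 := SpecialLinearGroup (Fin 2) (ZMod 11)

/-- coded matrices -/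
structure Q4 where
  a : ℕ
  b : ℕ
  c : ℕ
  d : ℕ

/-- determinant one -/
def Q4.ok (q : Q4) : Bool :=
  Nat.beq (Nat.mod (Nat.mul q.a q.d) 11) (Nat.mod (Nat.add 1 (Nat.mul q.b q.c)) 11)

theorem Q4.ok_eq (q : Q4) : q.ok = Nat.beq ((q.a * q.d) % 11) ((1 + q.b * q.c) % 11) := rfl

/-- product -/
def Q4.mul (q r : Q4) : Q4 := ⟨Nat.mod (Nat.add (Nat.mul q.a r.a) (Nat.mul q.b r.c)) 11,
  Nat.mod (Nat.add (Nat.mul q.a r.b) (Nat.mul q.b r.d)) 11,
  Nat.mod (Nat.add (Nat.mul q.c r.a) (Nat.mul q.d r.c)) 11,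
  Nat.mod (Nat.add (Nat.mul q.c r.b) (Nat.mul q.d r.d)) 11⟩

theorem Q4.mul_eq (q r : Q4) : q.mul r = ⟨(q.a * r.a + q.b * r.c) % 11,
    (q.a * r.b + q.b * r.d) % 11, (q.c * r.a + q.d * r.c) % 11, (q.c * r.b + q.d * r.d) % 11⟩ := rfl

/-- table lookup -/
def Q4.tb (T : ℕ) (q : Q4) : ℕ :=
  Nat.mod (Nat.shiftRight T (Nat.add (Nat.mul q.b 44)
    (cond (Nat.beq q.a 0) (Nat.mul q.d 4) (Nat.add (Nat.mul q.a 484) (Nat.mul q.c 4))))) 16

/-- the code of a matrix -/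
def enc (g : G11) : Q4 := ⟨(g 0 0).val, (g 0 1).val, (g 1 0).val, (g 1 1).val⟩

theorem enc_mul (g h : G11) : enc (g * h) = (enc g).mul (enc h) := by
  simp only [enc, Q4.mul_eq, Matrix.SpecialLinearGroup.coe_mul, Matrix.mul_apply, Fin.sum_univ_two,
    ZMod.val_add, ZMod.val_mul, Nat.add_mod_mod, Nat.mod_add_mod]

theorem enc_ok (g : G11) : (enc g).ok = true := by
  have d := g.det_coe
  rw [det_fin_two, sub_eq_iff_eq_add] at d
  have := congrArg ZMod.val d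
  rw [ZMod.val_add, ZMod.val_mul, ZMod.val_mul, Nat.add_mod_mod] at this
  rw [Q4.ok_eq, Nat.beq_eq]
  exact this

theorem enc_inj {g h : G11} (e : enc g = enc h) : g = h := by
  simp only [enc, Q4.mk.injEq] at e
  ext i j
  fin_cases i <;> fin_cases j
  exacts [ZMod.val_injective _ e.1, ZMod.val_injective _ e.2.1, ZMod.val_injective _ e.2.2.1,
    ZMod.val_injective _ e.2.2.2]

/-- reduced code of determinant one -/
def Q4.good (q : Q4) : Bool := q.ok && Nat.blt q.a 11 && Nat.blt q.b 11 && Nat.blt q.c 11 &&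
  Nat.blt q.d 11

theorem exists_enc (q : Q4) (h : q.good = true) : ∃ g, enc g = q := by
  obtain ⟨a, b, c, d⟩ := q
  simp only [Q4.good, Q4.ok_eq, Bool.and_eq_true, Nat.blt_eq, Nat.beq_eq] at h
  obtain ⟨⟨⟨⟨h, ha⟩, hb⟩, hc⟩, hd⟩ := h
  refine ⟨⟨!![a, b; c, d], ?_⟩, ?_⟩
  · rw [det_fin_two_of, sub_eq_iff_eq_add]
    exact_mod_cast (ZMod.natCast_eq_natCast_iff' _ _ 11).2 h
  · simp [enc, ZMod.val_natCast, Nat.mod_eq_of_lt, ha, hb, hc, hd]

/-- loop over the group -/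
def allG (f : Q4 → Bool) : Bool :=
  [0, 1, 2, 3, 4, 5, 6, 7, 8, 9, 10].all fun a => [0, 1, 2, 3, 4, 5, 6, 7, 8, 9, 10].all fun b =>
    [0, 1, 2, 3, 4, 5, 6, 7, 8, 9, 10].all fun c => [0, 1, 2, 3, 4, 5, 6, 7, 8, 9, 10].all fun d =>
      cond (Q4.ok ⟨a, b, c, d⟩) (f ⟨a, b, c, d⟩) true

theorem allG_spec {f : Q4 → Bool} (h : allG f = true) (g : G11) : f (enc g) = true := by
  have m : ∀ x : ZMod 11, x.val ∈ [0, 1, 2, 3, 4, 5, 6, 7, 8, 9, 10] := by decide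
  simp only [allG, List.all_eq_true] at h
  have := h _ (m (g 0 0)) _ (m (g 0 1)) _ (m (g 1 0)) _ (m (g 1 1))
  change cond (enc g).ok (f (enc g)) true = true at this
  rwa [enc_ok] at this

variable (ρ : Representation K G11 V) [Fintype G11]

/-- the operator with coefficients `f` -/
noncomputable def RR (f : Q4 → ℕ) : End K V := ∑ g, (f (enc g) : K) • ρ g

theorem RR_add (f f' : Q4 → ℕ) : RR ρ (fun q => f q + f' q) = RR ρ f + RR ρ f' := by
  simp [RR, add_smul, Finset.sum_add_distrib]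

theorem RR_mul (n : ℕ) (f : Q4 → ℕ) : RR ρ (fun q => n * f q) = (n : K) • RR ρ f := by
  simp [RR, Finset.smul_sum, smul_smul]

theorem RR_left (h : G11) (f : Q4 → ℕ) : RR ρ (fun q => f ((enc h).mul q)) = ρ h⁻¹ * RR ρ f := by
  simp only [RR, Finset.mul_sum, ← enc_mul, mul_smul_comm, ← map_mul]
  exact Fintype.sum_equiv (Equiv.mulLeft h) _ _ fun g => by simp

theorem RR_right (h : G11) (f : Q4 → ℕ) : RR ρ (fun q => f (q.mul (enc h))) = RR ρ f * ρ h⁻¹ := by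
  simp only [RR, Finset.sum_mul, ← enc_mul, smul_mul_assoc, ← map_mul]
  exact Fintype.sum_equiv (Equiv.mulRight h) _ _ fun g => by simp

theorem RR_congr [CharP K 11] {f f' : Q4 → ℕ}
    (h : allG (fun q => Nat.beq (f q % 11) (f' q % 11)) = true) : RR ρ f = RR ρ f' :=
  Finset.sum_congr rfl fun g _ => by
    rw [(CharP.natCast_eq_natCast K 11).2 (Nat.eq_of_beq_eq_true (allG_spec h g))]

/-- the part of an identity in the left ideal generated by the norms -/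
def sA : List (Q4 × ℕ) → Q4 → ℕ
  | [], _ => 0
  | e :: l, q => Nat.add (Nat.add (Nat.add (Q4.tb e.2 q) (Q4.tb e.2 (q.mul e.1)))
      (Q4.tb e.2 ((q.mul e.1).mul e.1))) (sA l q)

/-- the part of an identity in the left ideal generated by earlier elements -/
def sB : List (ℕ × ℕ × Q4) → Q4 → ℕ
  | [], _ => 0
  | e :: l, q => Nat.add (Nat.mul e.1 (Q4.tb e.2.1 (e.2.2.mul q))) (sB l q)

theorem RR_sA (l : List (Q4 × ℕ)) (v : V) (h : ∀ e ∈ l, ∃ x, enc x = e.1 ∧ nm ρ x⁻¹ v = 0) :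
    RR ρ (sA l) v = 0 := by
  induction l with
  | nil => simp [RR, sA]
  | cons e l ih =>
    obtain ⟨x, hx, hv⟩ := h e List.mem_cons_self
    have := congrArg (RR ρ (Q4.tb e.2)) hv
    have e0 : sA (e :: l) = fun q => Q4.tb e.2 q + Q4.tb e.2 (q.mul e.1) +
      Q4.tb e.2 ((q.mul e.1).mul e.1) + sA l q := rfl
    rw [e0, RR_add, RR_add, RR_add, ← hx, RR_right, RR_right ρ x fun q => Q4.tb e.2 (q.mul (enc x)),
      RR_right, LinearMap.add_apply, ih fun e he => h e (List.mem_cons_of_mem _ he), add_zero]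
    simpa only [nm, LinearMap.add_apply, End.mul_apply, End.one_apply, map_add, map_zero] using this

theorem RR_sB (l : List (ℕ × ℕ × Q4)) (v : V)
    (h : ∀ e ∈ l, e.2.2.good = true ∧ RR ρ (Q4.tb e.2.1) v = 0) : RR ρ (sB l) v = 0 := by
  induction l with
  | nil => simp [RR, sB]
  | cons e l ih =>
    obtain ⟨hg, hv⟩ := h e List.mem_cons_self
    obtain ⟨x, hx⟩ := exists_enc _ hg
    have e0 : sB (e :: l) = fun q => e.1 * Q4.tb e.2.1 (e.2.2.mul q) + sB l q := rfl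
    rw [e0, RR_add, RR_mul, ← hx, RR_left, LinearMap.add_apply,
      ih fun e he => h e (List.mem_cons_of_mem _ he)]
    simp [hv]

/-- one identity -/
def chkId (f : Q4 → ℕ) (l : List (Q4 × ℕ)) (m : List (ℕ × ℕ × Q4)) : Bool :=
  allG fun q => Nat.beq (f q % 11) ((sA l q + sB m q) % 11)

theorem RR_chk [CharP K 11] {f : Q4 → ℕ} {l : List (Q4 × ℕ)} {m : List (ℕ × ℕ × Q4)}
    (h : chkId f l m = true) (v : V) (h1 : ∀ e ∈ l, ∃ x, enc x = e.1 ∧ nm ρ x⁻¹ v = 0)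
    (h2 : ∀ e ∈ m, e.2.2.good = true ∧ RR ρ (Q4.tb e.2.1) v = 0) : RR ρ f v = 0 := by
  rw [RR_congr ρ h, RR_add, LinearMap.add_apply, RR_sA ρ l v h1, RR_sB ρ m v h2, add_zero]

/-- `(u - 1) c` -/
def tU (T : ℕ) (q : Q4) : ℕ := Q4.tb T (Q4.mul ⟨1, 10, 0, 1⟩ q) + 10 * Q4.tb T q

/-- the identity element -/
def tO (q : Q4) : ℕ := cond (Nat.beq q.a 1 && Nat.beq q.b 0 && Nat.beq q.c 0 && Nat.beq q.d 1) 1 0

/-- weight check -/
def chkW (T a : ℕ) : Bool :=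
  allG fun q => Nat.beq (Q4.tb T (Q4.mul ⟨6, 0, 0, 2⟩ q) % 11) (a * Q4.tb T q % 11)

theorem RR_tU [CharP K 11] (T : ℕ) : RR ρ (tU T) = (ρ (upm 1) - 1) * RR ρ (Q4.tb T) := by
  have e : enc (upm 1)⁻¹ = ⟨1, 10, 0, 1⟩ := by
    rw [show (upm (1 : ZMod 11))⁻¹ = upm 10 from
      inv_eq_of_mul_eq_one_right (by rw [← upm_add]; exact upm_zero)]
    rfl
  have t : ((10 : ℕ) : K) = -1 := by
    have := CharP.cast_eq_zero K 11
    push_cast at this ⊢
    linear_combination this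
  unfold tU
  rw [RR_add, RR_mul, ← e, RR_left, inv_inv, t, sub_mul, one_mul, neg_smul, one_smul,
    sub_eq_add_neg]

theorem RR_tO : RR ρ tO = 1 := by
  rw [RR, Finset.sum_eq_single 1]
  · have : tO (enc 1) = 1 := rfl
    simp [this]
  · intro g _ hg
    have : tO (enc g) = 0 := by
      unfold tO
      cases h : (Nat.beq (enc g).a 1 && Nat.beq (enc g).b 0 && Nat.beq (enc g).c 0 &&
        Nat.beq (enc g).d 1)
      · rfl
      · simp only [Bool.and_eq_true, Nat.beq_eq] at h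
        refine absurd (enc_inj ?_) hg
        change (⟨(enc g).a, (enc g).b, (enc g).c, (enc g).d⟩ : Q4) = ⟨1, 0, 0, 1⟩
        rw [h.1.1.1, h.1.1.2, h.1.2, h.2]
    simp [this]
  · simp

theorem RR_chkW [CharP K 11] {t : G11} (ht : enc t = ⟨6, 0, 0, 2⟩) {T a : ℕ} (h : chkW T a = true) :
    ρ t⁻¹ * RR ρ (Q4.tb T) = (a : K) • RR ρ (Q4.tb T) := by
  rw [← RR_left, ← RR_mul, ht]
  exact RR_congr ρ h

theorem step_chk [CharP K 11] [FiniteDimensional K V] {t : G11} (ht : enc t = ⟨6, 0, 0, 2⟩)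
    {T a : ℕ} {l : List (Q4 × ℕ)} {m : List (ℕ × ℕ × Q4)} (hW : chkW T a = true)
    (h : chkId (tU T) l m = true) (W : Submodule K V)
    (h1 : ∀ v ∈ W, ∀ e ∈ l, ∃ x, enc x = e.1 ∧ nm ρ x⁻¹ v = 0)
    (h2 : ∀ v ∈ W, ∀ e ∈ m, e.2.2.good = true ∧ RR ρ (Q4.tb e.2.1) v = 0) :
    finrank K W ≤ finrank K ↥(W ⊓ ker (RR ρ (Q4.tb T))) +
      finrank K ↥(ker (ρ (upm 1) - 1) ⊓ ker (sh (ρ t⁻¹) a)) := by
  refine finrank_step _ _ _ fun v hv => ⟨?_, mem_ker_sh.2 congr($(RR_chkW ρ ht hW) v)⟩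
  have := RR_chk ρ h v (h1 v hv) (h2 v hv)
  rwa [RR_tU] at this

end Cfsg.Agent.H11.Fx
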