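import Cfsg.Agent.H11.FxGK

set_option autoImplicit false

/-! Fixed spaces on modules for `SL₂(p)` away from the defining characteristic. -/

namespace Cfsg.Agent.H11.Fx

open Module LinearMap Matrix

universe v

variable {K V : Type*} [Field K] [AddCommGroup V] [Module K V]

/-- upper unitriangular matrices -/
def upm {R : Type*} [CommRing R] (a : R) : SpecialLinearGroup (Fin 2) R :=
  ⟨!![1, a; 0, 1], by simp [det_fin_two]⟩

theorem upm_val {R : Type*} [CommRing R] (a : R) : (upm a).1 = !![1, a; 0, 1] := rfl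

theorem upm_add {R : Type*} [CommRing R] (a b : R) : upm (a + b) = upm a * upm b := by
  ext i j
  fin_cases i <;> fin_cases j <;> simp [upm_val, Matrix.mul_apply, Fin.sum_univ_two, add_comm]

theorem upm_zero {R : Type*} [CommRing R] : upm (0 : R) = 1 := by
  ext i j
  fin_cases i <;> fin_cases j <;> simp [upm_val]

theorem upm_pow {R : Type*} [CommRing R] (a : R) (n : ℕ) : upm a ^ n = upm (n * a) := by
  induction n with
  | zero => simp [upm_zero]
  | succ n ih => rw [pow_succ, ih, ← upm_add]; congr 1; push_cast; ring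

theorem upm_inj {R : Type*} [CommRing R] {a b : R} (h : upm a = upm b) : a = b := by
  simpa [upm_val] using congrArg (fun g : SpecialLinearGroup (Fin 2) R => g 0 1) h

theorem upm_ne_one {R : Type*} [CommRing R] {a : R} (h : a ≠ 0) : upm a ≠ 1 :=
  fun e => h (upm_inj (e.trans upm_zero.symm))

/-- the Weyl element -/
def wm (R : Type*) [CommRing R] : SpecialLinearGroup (Fin 2) R :=
  ⟨!![0, -1; 1, 0], by simp [det_fin_two]⟩

theorem wm_val (R : Type*) [CommRing R] : (wm R).1 = !![0, -1; 1, 0] := rfl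

theorem x3_eq (R : Type*) [CommRing R] : x3 R * upm 1 = wm R := by
  ext i j
  fin_cases i <;> fin_cases j <;> simp [upm_val, wm_val, x3_val, Matrix.mul_apply, Fin.sum_univ_two]

theorem wm_eq (R : Type*) [CommRing R] :
    upm 1 * wm R * upm 1 * wm R * upm 1 * wm R = wm R * wm R := by
  ext i j
  fin_cases i <;> fin_cases j <;> simp [upm_val, wm_val, Matrix.mul_apply, Fin.sum_univ_two]

variable (p : ℕ) [hp : Fact p.Prime]

/-- `diag(a, 1)` -/
def dgm {F : Type*} [Field F] (a : Fˣ) : GL (Fin 2) F :=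
  GeneralLinearGroup.mkOfDetNeZero !![a, 0; 0, 1] (by simp [det_fin_two])

theorem dgm_upm {F : Type*} [Field F] (a : Fˣ) :
    dgm a * (upm (1 : F)).toGL = (upm (a : F)).toGL * dgm a := by
  ext i j
  fin_cases i <;> fin_cases j <;> simp [dgm, upm_val, Matrix.mul_apply, Fin.sum_univ_two]

theorem dim_ge [FiniteDimensional K V] [IsAlgClosed K] (hK : (p : K) ≠ 0)
    (ρ : Representation K (GL (Fin 2) (ZMod p)) V) (h : ρ (upm 1).toGL ≠ 1) :
    p - 1 ≤ finrank K V := by
  set T := ρ (upm 1).toGL with hT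
  have Tp : T ^ p = 1 := by
    rw [hT, ← map_pow, ← map_pow, upm_pow, ZMod.natCast_self, zero_mul, upm_zero, map_one, map_one]
  have hW : ∀ w ∈ range (T - 1), T w ∈ range (T - 1) := by
    rintro _ ⟨y, rfl⟩
    exact ⟨T y, by simp⟩
  have : Nontrivial (range (T - 1)) := Submodule.nontrivial_iff_ne_bot.2 fun e =>
    h (sub_eq_zero.1 (range_eq_bot.1 e))
  obtain ⟨ζ, hζ⟩ := End.exists_eigenvalue (T.restrict hW)
  obtain ⟨⟨y, y0, rfl⟩, hy, hy0⟩ := hζ.exists_hasEigenvector
  set y := (T - 1) y0 with hy1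
  have y0' : y ≠ 0 := fun e => hy0 (Subtype.ext e)
  have hy' : T y = ζ • y := congrArg Subtype.val (End.mem_eigenspace_iff.1 hy)
  have hn : ∀ n : ℕ, (T ^ n) y = ζ ^ n • y := fun n => by
    induction n with
    | zero => simp
    | succ n ih => rw [pow_succ', End.mul_apply, ih, map_smul, hy', smul_smul, pow_succ]
  have ζp : ζ ^ p = 1 := by
    have := hn p
    rw [Tp, End.one_apply] at this
    exact smul_left_injective K y0' (this.symm.trans (one_smul K y).symm)
  have ζ1 : ζ ≠ 1 := fun e => by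
    have e1 : (∑ i ∈ Finset.range p, T ^ i) y = 0 := by
      rw [hy1, ← End.mul_apply, geom_sum_mul, Tp, sub_self, LinearMap.zero_apply]
    simp only [LinearMap.sum_apply, hn, e, one_pow, one_smul, Finset.sum_const, Finset.card_range,
      ← Nat.cast_smul_eq_nsmul K, smul_eq_zero] at e1
    exact e1.elim hK y0'
  have hprim : IsPrimitiveRoot ζ p := by
    rw [IsPrimitiveRoot.iff_orderOf, orderOf_eq_prime ζp ζ1]
  have li := End.eigenvectors_linearIndependent' T (fun a : (ZMod p)ˣ => ζ ^ (a : ZMod p).val)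
    (fun a b e => Units.ext (ZMod.val_injective p
      (hprim.pow_inj (ZMod.val_lt _) (ZMod.val_lt _) e)))
    (fun a => ρ (dgm a)⁻¹ y) fun a => by
      refine ⟨End.mem_eigenspace_iff.2 ?_, fun e => y0' ?_⟩
      · have : (upm (1 : ZMod p)).toGL * (dgm a)⁻¹ =
            (dgm a)⁻¹ * (upm (1 : ZMod p)).toGL ^ (a : ZMod p).val := by
          rw [← map_pow, upm_pow, ZMod.natCast_zmod_val, mul_one, eq_inv_mul_iff_mul_eq,
            ← mul_assoc, dgm_upm, mul_inv_cancel_right]
        rw [hT, ← End.mul_apply, ← map_mul, this, map_mul, map_pow, End.mul_apply, hn, map_smul]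
      · exact ((End.isUnit_iff _).1 (isUnit_rep ρ _)).1 (e.trans (map_zero _).symm)
  have := li.fintype_card_le_finrank
  rwa [ZMod.card_units] at this

theorem asAlg_nm {G : Type*} [Group G] (ρ : Representation K G V) (x : G) :
    ρ.asAlgebraHom (1 + MonoidAlgebra.of K G x + MonoidAlgebra.of K G x * MonoidAlgebra.of K G x) =
      nm ρ x := by
  simp only [map_add, map_mul, map_one, Representation.asAlgebraHom_of, nm]

theorem cross_gl [IsAlgClosed K] (hK : (p : K) ≠ 0) (hK3 : (3 : K) ≠ 0) (h3 : p % 3 = 2)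
    (h11 : 11 ≤ p) (V : Type v) [AddCommGroup V] [Module K V] [FiniteDimensional K V]
    (ρ : Representation K (GL (Fin 2) (ZMod p)) V) :
    finrank K V ≤ 6 * rk (nm ρ (x3 (ZMod p)).toGL) := by
  set X := (x3 (ZMod p)).toGL with hX
  have := le_wrk_of_irr (K := K) 1
    [(6, 1 + MonoidAlgebra.of K _ X + MonoidAlgebra.of K _ X * MonoidAlgebra.of K _ X)]
    (fun V _ _ _ _ ρ hi => ?_) V ρ
  · simpa [wrk, asAlg_nm, -MonoidAlgebra.of_apply] using this
  simp only [wrk, List.map_cons, List.map_nil, List.sum_cons, List.sum_nil, asAlg_nm]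
  have e := rk_add_nul (nm ρ X)
  by_cases h : ρ (upm 1).toGL = 1
  · have a1 : ρ X = ρ (wm _).toGL := by rw [← x3_eq, map_mul, map_mul, h, mul_one]
    have a2 : ρ (wm _).toGL = 1 := by
      have := congrArg (fun g => ρ (SpecialLinearGroup.toGL g)) (wm_eq (ZMod p))
      simp only [map_mul, h, mul_one, one_mul] at this
      exact ((isUnit_rep ρ _).mul (isUnit_rep ρ _)).mul_left_cancel (this.trans (mul_one _).symm)
    have a3 : nm ρ X = algebraMap K _ 3 := by
      rw [nm, a1, a2, map_ofNat]; norm_num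
    have := nul_of_isUnit (a3 ▸ (IsUnit.mk0 _ hK3).map (algebraMap K (End K V)))
    omega
  · have d := dim_ge p hK ρ h
    obtain ⟨w, hw⟩ := IsAlgClosed.exists_root (Polynomial.X ^ 2 + Polynomial.X + 1 : Polynomial K)
      (by
        have : (Polynomial.X ^ 2 + Polynomial.X + 1 : Polynomial K).degree = 2 := by compute_degree!
        rw [this]; decide)
    have hw' : w ^ 2 + w + 1 = 0 := by simpa using hw
    have f : nm ρ X = (ρ X - algebraMap K _ w) * (ρ X - algebraMap K _ (-1 - w)) := by
      have c : algebraMap K (End K V) w * algebraMap K (End K V) (-1 - w) = 1 := by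
        rw [← map_mul, ← map_one (algebraMap K (End K V))]
        congr 1
        linear_combination -hw'
      rw [sub_mul, mul_sub, mul_sub, c, map_sub, map_neg, map_one, Algebra.commutes w, nm]
      noncomm_ring
    have n1 := nul_mul_le (ρ X - algebraMap K _ w) (ρ X - algebraMap K _ (-1 - w))
    have n2 := nul_x3_le p h3 hi w
    have n3 := nul_x3_le p h3 hi (-1 - w)
    rw [← f] at n1
    rw [← hX] at n2 n3
    omega

theorem toGL_range_normal (F : Type*) [Field F] :
    (SpecialLinearGroup.toGL : SpecialLinearGroup (Fin 2) F →* GL (Fin 2) F).range.Normal := by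
  refine ⟨?_⟩
  rintro _ ⟨a, rfl⟩ g
  refine ⟨⟨(g * a.toGL * g⁻¹).val, ?_⟩, Units.ext rfl⟩
  have : GeneralLinearGroup.det (g * a.toGL * g⁻¹) = 1 := by simp
  exact congrArg Units.val this

/-- cross characteristic, `p ≡ 2 mod 3` -/
theorem not_small_cross [FiniteDimensional K V] (hK : (p : K) ≠ 0) (h3 : p % 3 = 2) (h11 : 11 ≤ p)
    (ρ : Representation K (SpecialLinearGroup (Fin 2) (ZMod p)) V) : ¬ Small ρ := fun h => by
  by_cases hK3 : (3 : K) = 0
  · have : Fact (Nat.Prime 3) := ⟨Nat.prime_three⟩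
    have : CharP K 3 := (CharP.charP_iff_prime_eq_zero Nat.prime_three).2 (by exact_mod_cast hK3)
    have := le_char_mul ρ 3 (x3_pow _)
    have := h _ (x3_ne_one _)
    omega
  let L := AlgebraicClosure K
  have inj := (algebraMap K L).injective
  have h' := (h.bc L).indu _ SpecialLinearGroup.toGL_injective (toGL_range_normal _)
  have a := cross_gl p (K := L) (by rw [← map_natCast (algebraMap K L)]; exact (map_ne_zero _).2 hK)
    (by rw [← map_ofNat (algebraMap K L)]; simpa using hK3) h3 h11 _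
    (indu _ SpecialLinearGroup.toGL_injective (bc L ρ))
  have b := rk_nm_le (indu _ SpecialLinearGroup.toGL_injective (bc L ρ))
    (x := (x3 (ZMod p)).toGL) (by rw [← map_pow, x3_pow, map_one])
  have c := h' _ (x3_ne_one _)
  change 6 * fx (indu _ SpecialLinearGroup.toGL_injective (bc L ρ)) (x3 (ZMod p)).toGL < _ at c
  omega

/-- `p ≡ 1 mod 3`, every characteristic -/
theorem not_small_one [FiniteDimensional K V] (h3 : p % 3 = 1)
    (ρ : Representation K (SpecialLinearGroup (Fin 2) (ZMod p)) V) : ¬ Small ρ := fun h => by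
  have : Fact (Nat.Prime 3) := ⟨Nat.prime_three⟩
  have h2 := hp.out.two_le
  obtain ⟨w, hw⟩ := exists_prime_orderOf_dvd_card (G := (ZMod p)ˣ) 3
    (by rw [ZMod.card_units]; omega)
  have w3 : (w : ZMod p) ^ 3 = 1 := by rw [← Units.val_pow_eq_pow_val, ← hw, pow_orderOf_eq_one]; rfl
  have w1 : (w : ZMod p) ≠ 1 := fun e => by
    rw [Units.val_eq_one.1 e, orderOf_one] at hw; omega
  generalize (w : ZMod p) = a at w3 w1
  have wq : a ^ 2 + a + 1 = 0 :=
    mul_left_cancel₀ (sub_ne_zero.2 w1) (by linear_combination w3)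
  have a0 : a ≠ 0 := fun e => by simp [e] at w3
  let x : SpecialLinearGroup (Fin 2) (ZMod p) :=
    ⟨!![a, 0; 0, a ^ 2], by rw [det_fin_two_of]; linear_combination w3⟩
  have xv : x.1 = !![a, 0; 0, a ^ 2] := rfl
  have hc : ∀ b, upm (a ^ 2 * b) * x = x * upm b := fun b => by
    ext i j
    fin_cases i <;> fin_cases j <;> simp [upm_val, xv, Matrix.mul_apply, Fin.sum_univ_two]
    linear_combination a * b * w3
  have hne : a ^ 2 - 1 ≠ 0 := fun e => w1 (by linear_combination w3 - a * e)
  refine h.not_two_three (x := x) (g := upm 1) (u := upm (a ^ 2 - 1))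
    (v := upm (a ^ 2 * (a ^ 2 - 1))) ?_ ?_ ?_ (hc _) ?_ ?_ ?_
  · ext i j
    fin_cases i <;> fin_cases j <;> simp [xv, pow_succ, Matrix.mul_apply, Fin.sum_univ_two]
    · linear_combination w3
    · linear_combination (a ^ 3 + 1) * w3
  · exact fun e => w1 (by simpa [xv] using congrArg (fun g : SpecialLinearGroup (Fin 2) _ => g 0 0) e)
  · rw [← mul_assoc, ← mul_assoc, ← upm_add, mul_inv_eq_iff_eq_mul, ← hc]
    congr 2
    ring
  · rw [Commute, SemiconjBy, ← upm_add, ← upm_add, add_comm]
  · exact fun e => hne (mul_right_cancel₀ hne (by linear_combination -upm_inj e))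
  · rw [← upm_add]
    refine upm_ne_one fun e => mul_ne_zero a0 hne ?_
    linear_combination (a ^ 2 - 1) * wq - e

end Cfsg.Agent.H11.Fx
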