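import Cfsg.Agent.H11.FxSym

set_option autoImplicit false

/-! Fixed spaces on modules for `SL₂(p)` in characteristic `p ≥ 17`. -/

namespace Cfsg.Agent.H11.Fx

open Module LinearMap Matrix

universe v

variable {K V : Type*} [Field K] [AddCommGroup V] [Module K V]

/-- `T - a` -/
def sh (T : End K V) (a : K) : End K V := T - algebraMap K (End K V) a

theorem mem_ker_sh {T : End K V} {a : K} {v : V} : v ∈ ker (sh T a) ↔ T v = a • v := by
  rw [sh, mem_ker, LinearMap.sub_apply, sub_eq_zero]; rfl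

theorem finrank_three [FiniteDimensional K V] (A : Submodule K V) (T : End K V) {a b c : K}
    (hab : a ≠ b) (hac : a ≠ c) (hbc : b ≠ c) :
    finrank K ↥(A ⊓ ker (sh T a)) + finrank K ↥(A ⊓ ker (sh T b)) +
      finrank K ↥(A ⊓ ker (sh T c)) ≤ finrank K A := by
  have m : ∀ (a : K) v, v ∈ ker (sh T a) ↔ T v = a • v := fun a v => mem_ker_sh
  have e1 := Submodule.finrank_sup_add_finrank_inf_eq (A ⊓ ker (sh T a))
    (A ⊓ ker (sh T b))
  have e2 := Submodule.finrank_sup_add_finrank_inf_eq ((A ⊓ ker (sh T a)) ⊔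
    (A ⊓ ker (sh T b))) (A ⊓ ker (sh T c))
  have z1 : (A ⊓ ker (sh T a)) ⊓ (A ⊓ ker (sh T b)) = ⊥ :=
    (Submodule.eq_bot_iff _).2 fun v hv => by
      have := ((m a v).1 hv.1.2).symm.trans ((m b v).1 hv.2.2)
      rw [← sub_eq_zero, ← sub_smul, smul_eq_zero] at this
      exact this.resolve_left (sub_ne_zero.2 hab)
  have z2 : ((A ⊓ ker (sh T a)) ⊔ (A ⊓ ker (sh T b))) ⊓
      (A ⊓ ker (sh T c)) = ⊥ := (Submodule.eq_bot_iff _).2 fun v hv => by
    obtain ⟨x, hx, y, hy, rfl⟩ := Submodule.mem_sup.1 hv.1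
    have h1 := (m a x).1 hx.2
    have h2 := (m b y).1 hy.2
    have h3 := (m c _).1 hv.2.2
    have h4 := congrArg T h3
    simp only [map_add, map_smul, h1, h2] at h3 h4
    have : ((c - a) * (c - b)) • (x + y) = 0 := by
      linear_combination (norm := module) -((c - a - b) • h3) - h4
    rw [smul_eq_zero] at this
    exact this.resolve_left (mul_ne_zero (sub_ne_zero.2 hac.symm) (sub_ne_zero.2 hbc.symm))
  have := Submodule.finrank_mono (show (A ⊓ ker (sh T a)) ⊔
    (A ⊓ ker (sh T b)) ⊔ (A ⊓ ker (sh T c)) ≤ A from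
      sup_le (sup_le inf_le_left inf_le_left) inf_le_left)
  rw [z1, finrank_bot] at e1
  rw [z2, finrank_bot] at e2
  omega

variable (p : ℕ) [hp : Fact p.Prime] (φ : ZMod p →+* K)

theorem nul_wt_le [FiniteDimensional K V]
    (ρ : Representation K (SpecialLinearGroup (Fin 2) (ZMod p)) V) (g : (ZMod p)ˣ) (a : K) :
    nul (sh (ρ (tm g)) a) ≤ nul (sh (ρ (tm g)) ((φ g)⁻¹ ^ 2 * a)) +
      finrank K ↥(ker (ρ (upm 1) - 1) ⊓ ker (sh (ρ (tm g)) a)) := by
  rcases subsingleton_or_nontrivial V with hV | hV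
  · rw [nul, finrank_zero_of_subsingleton]; omega
  have m : ∀ (a : K) v, v ∈ ker (sh (ρ (tm g)) a) ↔ ρ (tm g) v = a • v := fun a v => mem_ker_sh
  let E : End K V := ∑ c : (ZMod p)ˣ, (φ c)⁻¹ • (ρ (upm (c : ZMod p)) - 1)
  have g0 : φ g ≠ 0 := (map_ne_zero φ).2 g.ne_zero
  have hE : ρ (tm g) * E = (φ g)⁻¹ ^ 2 • (E * ρ (tm g)) := by
    simp only [E, Finset.mul_sum, Finset.sum_mul, Finset.smul_sum]
    refine Fintype.sum_equiv (Equiv.mulLeft (g⁻¹ ^ 2)) _ _ fun c => ?_
    have c0 : φ c ≠ 0 := (map_ne_zero φ).2 c.ne_zero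
    rw [mul_smul_comm, smul_mul_assoc, smul_smul, mul_sub, sub_mul, ← map_mul, tm_upm, map_mul]
    simp only [Equiv.coe_mulLeft, Units.val_mul, Units.val_pow_eq_pow_val,
      Units.val_inv_eq_inv_val, map_mul, map_pow, map_inv₀, mul_one, one_mul]
    congr 1
    field_simp
  have hk : ∀ v, E v = 0 → (ρ (upm 1) - 1) v = 0 := by
    open Polynomial in
    let h : K[X] := ∑ c : (ZMod p)ˣ, C (φ c)⁻¹ * ∑ i ∈ Finset.range (c : ZMod p).val, X ^ i
    have h1 : h.eval 1 = -1 := by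
      have : ∀ c : (ZMod p)ˣ, (φ c)⁻¹ * ((c : ZMod p).val : K) = 1 := fun c => by
        rw [← map_natCast φ, ZMod.natCast_zmod_val, inv_mul_cancel₀ ((map_ne_zero φ).2 c.ne_zero)]
      simp only [h, eval_finsetSum, eval_mul, eval_C, eval_pow, eval_X, one_pow, Finset.sum_const,
        Finset.card_range, nsmul_eq_mul, mul_one, this, Finset.card_univ, ZMod.card_units]
      rw [Nat.cast_pred hp.out.pos, ← map_natCast φ, ZMod.natCast_self, map_zero, zero_sub]
    have h2 : E = aeval (ρ (upm 1)) h * (ρ (upm 1) - 1) := by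
      simp only [E, h, map_sum, map_mul, aeval_C, map_pow, aeval_X, Finset.sum_mul]
      refine Finset.sum_congr rfl fun c _ => ?_
      rw [mul_assoc, geom_sum_mul, ← map_pow, ← upm_eq_pow, Algebra.smul_def]
    obtain ⟨q, hq⟩ := X_sub_C_dvd_sub_C_eval (p := h) (a := 1)
    have h3 : aeval (ρ (upm 1)) h = (ρ (upm 1) - 1) * aeval (ρ (upm 1)) q - 1 := by
      have := congrArg (aeval (ρ (upm 1))) hq
      simp only [h1, map_sub, map_mul, aeval_X, map_neg, map_one] at this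
      rw [← this, sub_neg_eq_add, add_sub_cancel_right]
    have h4 : IsUnit (aeval (ρ (upm 1)) h) := by
      rw [h3]
      refine IsNilpotent.isUnit_sub_one (Commute.isNilpotent_mul_right ?_ ⟨p, up_nilp p φ⟩)
      refine Commute.sub_left ?_ (Commute.one_left _)
      have := (Commute.all X q).map (aeval (ρ (upm 1)))
      rwa [aeval_X] at this
    intro v hv
    rw [h2, End.mul_apply] at hv
    exact ((End.isUnit_iff _).1 h4).1 (hv.trans (map_zero _).symm)
  have h1 := finrank_range_add_finrank_ker (E.domRestrict (ker (sh (ρ (tm g)) a)))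
  have h2 : finrank K (range (E.domRestrict (ker (sh (ρ (tm g)) a)))) ≤
      nul (sh (ρ (tm g)) ((φ g)⁻¹ ^ 2 * a)) := by
    refine Submodule.finrank_mono ?_
    rintro _ ⟨⟨v, hv⟩, rfl⟩
    rw [m, domRestrict_apply, ← End.mul_apply, hE, LinearMap.smul_apply, End.mul_apply,
      (m a v).1 hv, map_smul, smul_smul]
  have h3 : finrank K (ker (E.domRestrict (ker (sh (ρ (tm g)) a)))) ≤
      finrank K ↥(ker (ρ (upm 1) - 1) ⊓ ker (sh (ρ (tm g)) a)) := by
    rw [← Submodule.finrank_map_subtype_eq]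
    refine Submodule.finrank_mono ?_
    rintro _ ⟨⟨v, hv⟩, h, rfl⟩
    exact ⟨hk v h, hv⟩
  unfold nul at *
  omega

theorem card_fin_filter (n : ℕ) (D : ℕ → Prop) [DecidablePred D] :
    (Finset.univ.filter fun j : Fin n => D j).card = ((Finset.range n).filter D).card := by
  rw [Finset.card_filter, Finset.card_filter,
    Fin.sum_univ_eq_sum_range (fun j => if D j then 1 else 0)]

theorem card_two_mul (k m s : ℕ) : ((Finset.range (k + 1)).filter fun j => 2 * j + s = m).card =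
    if (m - s) % 2 = 0 ∧ s ≤ m ∧ m ≤ 2 * k + s then 1 else 0 := by
  split_ifs with h
  · refine Finset.card_eq_one.2 ⟨(m - s) / 2, Finset.ext fun j => ?_⟩
    simp only [Finset.mem_filter, Finset.mem_range, Finset.mem_singleton]
    omega
  · refine Finset.card_eq_zero.2 (Finset.filter_eq_empty_iff.2 fun j hj => ?_)
    rw [Finset.mem_range] at hj
    omega

theorem card_wt [DecidableEq K] {γ : K} {n : ℕ} (hγ : IsPrimitiveRoot γ n) {k l : ℕ} (hk : k ≤ n)
    (hl : 0 < l) (hln : l < n) :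
    (Finset.univ.filter fun j : Fin (k + 1) => γ ^ (j : ℕ) * γ⁻¹ ^ (k - j) = γ ^ l).card =
      (if (k + l) % 2 = 0 ∧ l ≤ k then 1 else 0) +
      if (k + l - n) % 2 = 0 ∧ n ≤ k + l then 1 else 0 := by
  have g0 : γ ≠ 0 := hγ.ne_zero (by omega)
  have e : ∀ j ∈ Finset.range (k + 1), (γ ^ j * γ⁻¹ ^ (k - j) = γ ^ l ↔
      (2 * j + 0 = k + l ∨ 2 * j + n = k + l)) := fun j hj => by
    rw [Finset.mem_range] at hj
    rw [inv_pow, mul_inv_eq_iff_eq_mul₀ (pow_ne_zero _ g0), ← pow_add,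
      (hγ.isOfFinOrder (by omega)).pow_eq_pow_iff_modEq, ← hγ.eq_orderOf]
    constructor
    · intro h
      obtain ⟨c, hc⟩ := h.dvd
      have c1 : c < 2 := by
        by_contra h
        have : (n : ℤ) * 2 ≤ n * c := mul_le_mul_of_nonneg_left (by omega) (by omega)
        omega
      have c2 : -1 < c := by
        by_contra h
        have : (n : ℤ) * c ≤ n * (-1) := mul_le_mul_of_nonneg_left (by omega) (by omega)
        omega
      obtain rfl | rfl : c = 0 ∨ c = 1 := by omega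
      all_goals omega
    · rintro (h | h)
      · rw [show l + (k - j) = j by omega]
      · rw [show l + (k - j) = j + n by omega]
        exact (Nat.add_modEq_right).symm
  rw [card_fin_filter (k + 1) fun j => γ ^ j * γ⁻¹ ^ (k - j) = γ ^ l, Finset.filter_congr e,
    Finset.filter_or, Finset.card_union_of_disjoint, card_two_mul, card_two_mul]
  · congr 1 <;> refine if_congr ?_ rfl rfl <;> omega
  · exact Finset.disjoint_filter.2 fun j _ h => by omega

theorem card_three (k : ℕ) : k / 3 + (if k % 3 = 1 then 0 else 1) ≤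
    ((Finset.range (k + 1)).filter fun j => (j + 2 * (k - j)) % 3 = 0).card := by
  have e : ∀ j ∈ Finset.range (k + 1), ((j + 2 * (k - j)) % 3 = 0 ↔ j ≡ 2 * k [MOD 3]) :=
    fun j hj => by
      rw [Finset.mem_range] at hj
      unfold Nat.ModEq
      omega
  rw [Finset.filter_congr e, ← Nat.count_eq_card_filter_range, Nat.count_modEq_card _ (by omega)]
  split_ifs <;> omega

/-- the idempotent (up to a scalar) of an eigenvalue -/
noncomputable def qa {G : Type*} [Group G] (t : G) (n : ℕ) (a : K) : MonoidAlgebra K G :=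
  ∑ i ∈ Finset.range n, (a⁻¹ • MonoidAlgebra.of K G t) ^ i

theorem asAlg_qa {G : Type*} [Group G] (ρ : Representation K G V) (t : G) (n : ℕ) (a : K) :
    ρ.asAlgebraHom (qa t n a) = ∑ i ∈ Finset.range n, (a⁻¹ • ρ t) ^ i := by
  simp only [qa, map_sum, map_pow, map_smul, Representation.asAlgebraHom_of]

theorem asAlg_sub {G : Type*} [Group G] (ρ : Representation K G V) (t : G) (a : K) :
    ρ.asAlgebraHom (MonoidAlgebra.of K G t - algebraMap K _ a) = sh (ρ t) a := by
  rw [map_sub, Representation.asAlgebraHom_of, AlgHom.commutes, sh]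

theorem rk_qa_le [FiniteDimensional K V] {G : Type*} [Group G] (ρ : Representation K G V) {t : G}
    {n : ℕ} (ht : t ^ n = 1) {a : K} (ha : a ^ n = 1) (h0 : a ≠ 0) :
    rk (ρ.asAlgebraHom (qa t n a)) ≤ nul (sh (ρ t) a) := by
  refine rk_le_nul ?_
  have : sh (ρ t) a = a • (a⁻¹ • ρ t - 1) := by
    rw [sh, smul_sub, smul_smul, mul_inv_cancel₀ h0, one_smul, Algebra.algebraMap_eq_smul_one]
  rw [asAlg_qa, this, smul_mul_assoc, mul_geom_sum, smul_pow, ← map_pow, ht, inv_pow, ha]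
  simp

theorem le_rk_qa [DecidableEq K] {G ι : Type*} [Group G] [Fintype ι] (ρ : Representation K G V)
    {t : G} {n : ℕ} (hn : (n : K) ≠ 0) {a : K} (h0 : a ≠ 0) (b : Basis ι K V) (c : ι → K)
    (h : ∀ i, ρ t (b i) = c i • b i) :
    (Finset.univ.filter fun i => c i = a).card ≤ rk (ρ.asAlgebraHom (qa t n a)) := by
  rw [rk_diag b _ (fun i => ∑ m ∈ Finset.range n, (a⁻¹ * c i) ^ m) fun i => ?_]
  · refine Finset.card_le_card fun i hi => ?_
    simp only [Finset.mem_filter, Finset.mem_univ, true_and] at hi ⊢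
    simpa [hi, h0] using hn
  · rw [asAlg_qa, LinearMap.sum_apply, Finset.sum_smul]
    refine Finset.sum_congr rfl fun m hm => ?_
    clear hm
    induction m with
    | zero => simp
    | succ m ih =>
      rw [pow_succ', End.mul_apply, ih, map_smul, LinearMap.smul_apply, h, smul_smul, smul_smul,
        pow_succ, mul_assoc]

theorem rk_sub_eq [DecidableEq K] {ι : Type*} [Fintype ι] (T : End K V) (a : K) (b : Basis ι K V)
    (c : ι → K) (h : ∀ i, T (b i) = c i • b i) :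
    rk (sh T a) + (Finset.univ.filter fun i => c i = a).card = Fintype.card ι := by
  rw [rk_diag b _ (fun i => c i - a) fun i => by
    rw [sh, LinearMap.sub_apply, h, sub_smul]; rfl]
  simp only [sub_ne_zero]
  rw [add_comm, Finset.card_filter_add_card_filter_not, Finset.card_univ]

theorem arith_wt {p k r0 r1 r3 r4 r6 : ℕ} (h3 : p % 3 = 2) (h2 : p % 2 = 1) (h17 : 17 ≤ p)
    (hk : k < p) (c0 : k / 3 + (if k % 3 = 1 then 0 else 1) ≤ r0)
    (c1 : ((if (k + 1) % 2 = 0 ∧ 1 ≤ k then 1 else 0) +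
      if (k + 1 - (p - 1)) % 2 = 0 ∧ p - 1 ≤ k + 1 then 1 else 0) ≤ r1)
    (c3 : r3 + ((if (k + 3) % 2 = 0 ∧ 3 ≤ k then 1 else 0) +
      if (k + 3 - (p - 1)) % 2 = 0 ∧ p - 1 ≤ k + 3 then 1 else 0) = k + 1)
    (c4 : ((if (k + 4) % 2 = 0 ∧ 4 ≤ k then 1 else 0) +
      if (k + 4 - (p - 1)) % 2 = 0 ∧ p - 1 ≤ k + 4 then 1 else 0) ≤ r4)
    (c6 : r6 + ((if (k + 6) % 2 = 0 ∧ 6 ≤ k then 1 else 0) +
      if (k + 6 - (p - 1)) % 2 = 0 ∧ p - 1 ≤ k + 6 then 1 else 0) = k + 1) :
    4 * (k + 1) ≤ 4 * r0 + 2 * r1 + 2 * r3 + r4 + r6 := by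
  rcases Nat.mod_two_eq_zero_or_one k with h | h
  · rw [if_neg (by omega), if_neg (by omega)] at c1 c3
    split_ifs at c0 c4 c6 <;> omega
  · rw [if_neg (by omega), if_neg (by omega)] at c4 c6
    split_ifs at c0 c1 c3 <;> omega

include φ in
theorem def_bound [IsAlgClosed K] (h3 : p % 3 = 2) (h17 : 17 ≤ p) (V : Type v) [AddCommGroup V]
    [Module K V] [FiniteDimensional K V]
    (ρ : Representation K (SpecialLinearGroup (Fin 2) (ZMod p)) V) :
    finrank K V ≤ 4 * fx ρ (x3 _) + 2 * fx ρ (upm 1) := by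
  classical
  obtain ⟨g, -, hγ⟩ := exists_prim p φ
  obtain ⟨γ, hγd⟩ : ∃ γ, φ g = γ := ⟨_, rfl⟩
  rw [hγd] at hγ
  have g0 : γ ≠ 0 := hγ.ne_zero (by omega)
  have hp2 : p % 2 = 1 := hp.out.eq_two_or_odd.resolve_left (by omega)
  obtain ⟨t, ht⟩ : ∃ t, t = tm g⁻¹ := ⟨_, rfl⟩
  have tp : t ^ (p - 1) = 1 := by rw [ht, ← tm_pow, ZMod.units_pow_card_sub_one_eq_one, tm_one]
  have K3 : (3 : K) ≠ 0 := by
    rw [show (3 : K) = φ (3 : ℕ) by simp [map_ofNat], map_ne_zero, Ne, ZMod.natCast_eq_zero_iff]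
    exact fun h => by have := Nat.le_of_dvd (by omega) h; omega
  have Kp : ((p - 1 : ℕ) : K) ≠ 0 := by
    rw [Nat.cast_pred hp.out.pos, ← map_natCast φ, ZMod.natCast_self]; simp
  obtain ⟨w, hw⟩ := IsAlgClosed.exists_root (Polynomial.X ^ 2 + Polynomial.X + 1 : Polynomial K)
    (by
      have : (Polynomial.X ^ 2 + Polynomial.X + 1 : Polynomial K).degree = 2 := by compute_degree!
      rw [this]; decide)
  have hw' : w ^ 2 + w + 1 = 0 := by simpa using hw
  have w3 : w ^ 3 = 1 := by linear_combination (w - 1) * hw'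
  have := le_wrk_of_irr (K := K) 4
    [(4, 1 + MonoidAlgebra.of K _ (x3 _) + MonoidAlgebra.of K _ (x3 _) * MonoidAlgebra.of K _ (x3 _)),
      (2, qa t (p - 1) (γ ^ 1)), (2, MonoidAlgebra.of K _ t - algebraMap K _ (γ ^ 3)),
      (1, qa t (p - 1) (γ ^ 4)), (1, MonoidAlgebra.of K _ t - algebraMap K _ (γ ^ 6))]
    (fun V _ _ _ _ ρ hi => ?_) V ρ
  · simp only [wrk, List.map_cons, List.map_nil, List.sum_cons, List.sum_nil, asAlg_nm,
      asAlg_sub] at this
    have gp : ∀ n, (γ ^ n) ^ (p - 1) = 1 := fun n => by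
      rw [← pow_mul, mul_comm, pow_mul, hγ.pow_eq_one, one_pow]
    have a1 := rk_qa_le ρ tp (gp 1) (pow_ne_zero _ g0)
    have a2 := rk_qa_le ρ tp (gp 4) (pow_ne_zero _ g0)
    have e : ∀ n, (φ (g⁻¹ : (ZMod p)ˣ))⁻¹ ^ 2 * γ ^ n = γ ^ (n + 2) := fun n => by
      rw [Units.val_inv_eq_inv_val, map_inv₀, inv_inv, hγd]; ring
    have a3 := nul_wt_le p φ ρ g⁻¹ (γ ^ 1)
    have a4 := nul_wt_le p φ ρ g⁻¹ (γ ^ 4)
    rw [e, ← ht] at a3 a4
    have a5 := finrank_three (ker (ρ (upm 1) - 1)) (ρ t) (a := γ ^ 1) (b := γ ^ 4) (c := 0)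
      (fun h => by have := hγ.pow_inj (by omega) (by omega) h; omega) (pow_ne_zero _ g0)
      (pow_ne_zero _ g0)
    have a6 := rk_add_nul (sh (ρ t) (γ ^ 3))
    have a7 := rk_add_nul (sh (ρ t) (γ ^ 6))
    have a8 := rk_nm_le ρ (x3_pow (ZMod p))
    have a9 : fx ρ (upm 1) = finrank K (ker (ρ (upm 1) - 1)) := rfl
    norm_num only at a3 a4
    omega
  simp only [wrk, List.map_cons, List.map_nil, List.sum_cons, List.sum_nil, asAlg_nm, asAlg_sub]
  obtain ⟨k, hk, hb⟩ := exists_bases p φ hi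
  obtain ⟨b, hb1⟩ := hb 1 0 0 1 (by simp)
  have tv : t.1 = !![(g : ZMod p), 0; 0, (g : ZMod p)⁻¹] := by
    rw [ht, tm_val, Units.val_inv_eq_inv_val, inv_inv]
  have t00 : t.1 0 0 = g := by rw [tv]; rfl
  have t01 : t.1 0 1 = 0 := by rw [tv]; rfl
  have t10 : t.1 1 0 = 0 := by rw [tv]; rfl
  have t11 : t.1 1 1 = (g : ZMod p)⁻¹ := by rw [tv]; rfl
  have hb1 := hb1 t γ γ⁻¹ (by rw [t00, t01, hγd]; ring) (by rw [t10, map_zero]; ring)
    (by rw [t01, map_zero]; ring) (by rw [t10, t11, map_inv₀, hγd]; ring)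
  obtain ⟨b', hb2⟩ := hb 1 (-w) 1 (-w ^ 2) (fun h => K3 (by
    linear_combination (w ^ 2 - w) * h + (w ^ 2 - 3 * w + 3) * hw'))
  have hb2 := hb2 (x3 _) w (w ^ 2) (by simp [x3_val])
    (by simp [x3_val]; linear_combination hw') (by simp [x3_val])
    (by simp [x3_val]; linear_combination (w ^ 2 - w + 1) * hw')
  have d : finrank K V = k + 1 := by rw [finrank_eq_card_basis b, Fintype.card_fin]
  have c0 : k / 3 + (if k % 3 = 1 then 0 else 1) ≤ rk (nm ρ (x3 _)) := by
    refine (card_three k).trans ?_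
    rw [rk_diag b' _ (fun j => 1 + w ^ (j : ℕ) * (w ^ 2) ^ (k - j) +
      w ^ (j : ℕ) * (w ^ 2) ^ (k - j) * (w ^ (j : ℕ) * (w ^ 2) ^ (k - j))) fun j => by
        simp only [nm, LinearMap.add_apply, End.mul_apply, End.one_apply, hb2, map_smul, smul_smul,
          add_smul, one_smul], ← card_fin_filter]
    refine Finset.card_le_card fun j hj => ?_
    simp only [Finset.mem_filter, Finset.mem_univ, true_and] at hj ⊢
    obtain ⟨m, hm⟩ := Nat.dvd_of_mod_eq_zero hj
    rw [← pow_mul, ← pow_add, hm, pow_mul, w3, one_pow]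
    norm_num
    exact K3
  have c1 := le_rk_qa ρ Kp (pow_ne_zero 1 g0) b _ hb1
  have c4 := le_rk_qa ρ Kp (pow_ne_zero 4 g0) b _ hb1
  have c3 := rk_sub_eq _ (γ ^ 3) b _ hb1
  have c6 := rk_sub_eq _ (γ ^ 6) b _ hb1
  rw [card_wt hγ (by omega) (by omega) (by omega)] at c1 c3 c4 c6
  rw [Fintype.card_fin] at c3 c6
  have := arith_wt h3 hp2 h17 hk c0 c1 c3 c4 c6
  omega

/-- defining characteristic, `p ≥ 17` -/
theorem not_small_def [FiniteDimensional K V] (hK : (p : K) = 0) (h3 : p % 3 = 2) (h17 : 17 ≤ p)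
    (ρ : Representation K (SpecialLinearGroup (Fin 2) (ZMod p)) V) : ¬ Small ρ := fun h => by
  let L := AlgebraicClosure K
  have : CharP L p := (CharP.charP_iff_prime_eq_zero hp.out).2 (by
    rw [← map_natCast (algebraMap K L), hK, map_zero])
  have h' := h.bc L
  have := def_bound p (ZMod.castHom (dvd_refl p) L) h3 h17 _ (bc L ρ)
  have := h' _ (x3_ne_one _)
  have := h' _ (upm_ne_one one_ne_zero)
  omega

end Cfsg.Agent.H11.Fx
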