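import Cfsg.Agent.H11.FxCertD

set_option autoImplicit false

/-! Modules for `SL₂(11)` in characteristic `11`; all of `SL₂(p)`, `p ≥ 7`. -/

namespace Cfsg.Agent.H11.Fx

open Module LinearMap Matrix

variable {K V : Type*} [Field K] [AddCommGroup V] [Module K V]

theorem cube_of_enc {x : G11} {q : Q4} (h : enc x = q) (e : (q.mul q).mul q = ⟨1, 0, 0, 1⟩) :
    x⁻¹ ^ 3 = 1 := by
  rw [inv_pow, inv_eq_one, pow_three']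
  exact enc_inj (by rw [enc_mul, enc_mul, h, e]; rfl)

theorem ne_one_of_enc {x : G11} {q : Q4} (h : enc x = q) (e : q.a ≠ 1) : x⁻¹ ≠ 1 := fun e' => by
  rw [inv_eq_one.1 e'] at h
  exact e (by rw [← h]; rfl)

/-- defining characteristic, `p = 11` -/
theorem not_small_eleven [FiniteDimensional K V] [CharP K 11] (ρ : Representation K G11 V)
    [Fintype G11] : ¬ Small ρ := fun h => by
  obtain ⟨x0, e0⟩ := exists_enc ⟨5, 9, 10, 5⟩ rfl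
  have r0 := rk_nm_le ρ (cube_of_enc e0 rfl)
  have s0 := h _ (ne_one_of_enc e0 (by decide))
  obtain ⟨x1, e1⟩ := exists_enc ⟨10, 8, 4, 0⟩ rfl
  have r1 := rk_nm_le ρ (cube_of_enc e1 rfl)
  have s1 := h _ (ne_one_of_enc e1 (by decide))
  obtain ⟨x2, e2⟩ := exists_enc ⟨7, 2, 10, 3⟩ rfl
  have r2 := rk_nm_le ρ (cube_of_enc e2 rfl)
  have s2 := h _ (ne_one_of_enc e2 (by decide))
  obtain ⟨x3, e3⟩ := exists_enc ⟨5, 5, 7, 5⟩ rfl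
  have r3 := rk_nm_le ρ (cube_of_enc e3 rfl)
  have s3 := h _ (ne_one_of_enc e3 (by decide))
  obtain ⟨t, ht⟩ := exists_enc ⟨6, 0, 0, 2⟩ rfl
  have d := finrank_top K V
  have a0 := finrank_step (⊤) _ (nm ρ x0⁻¹) fun v _ => mem_range_self _ v
  have a1 := finrank_step (⊤ ⊓ ker (nm ρ x0⁻¹)) _ (nm ρ x1⁻¹) fun v _ => mem_range_self _ v
  have a2 := finrank_step (⊤ ⊓ ker (nm ρ x0⁻¹) ⊓ ker (nm ρ x1⁻¹)) _ (nm ρ x2⁻¹) fun v _ => mem_range_self _ v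
  have a3 := finrank_step (⊤ ⊓ ker (nm ρ x0⁻¹) ⊓ ker (nm ρ x1⁻¹) ⊓ ker (nm ρ x2⁻¹)) _ (nm ρ x3⁻¹) fun v _ => mem_range_self _ v
  set W := ⊤ ⊓ ker (nm ρ x0⁻¹) ⊓ ker (nm ρ x1⁻¹) ⊓ ker (nm ρ x2⁻¹) ⊓ ker (nm ρ x3⁻¹) with hW
  have hA : ∀ v ∈ W, ∀ l : List (Q4 × ℕ), l.map Prod.fst = [⟨5, 9, 10, 5⟩, ⟨10, 8, 4, 0⟩, ⟨7, 2, 10, 3⟩, ⟨5, 5, 7, 5⟩] →
      ∀ e ∈ l, ∃ x, enc x = e.1 ∧ nm ρ x⁻¹ v = 0 := fun v hv l hl e he => by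
    have := hl ▸ List.mem_map_of_mem (f := Prod.fst) he
    simp only [List.mem_cons, List.not_mem_nil, or_false] at this
    rcases this with a | a | a | a <;> rw [a]
    exacts [⟨_, e0, hv.1.1.1.2⟩, ⟨_, e1, hv.1.1.2⟩, ⟨_, e2, hv.1.2⟩, ⟨_, e3, hv.2⟩]
  have b0 := step_chk ρ ht cW0 cI0 (W)
    (fun v hv => hA v hv _ rfl) fun v hv => (by
      unfold cB0
      exact List.forall_mem_nil _)
  have b1 := step_chk ρ ht cW1 cI1 (W ⊓ ker (RR ρ (Q4.tb cT0)))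
    (fun v hv => hA v hv.1 _ rfl) fun v hv => (by
      unfold cB1
      exact List.forall_mem_cons.2 ⟨⟨rfl, hv.2⟩,
        List.forall_mem_cons.2 ⟨⟨rfl, hv.2⟩,
        List.forall_mem_cons.2 ⟨⟨rfl, hv.2⟩,
        List.forall_mem_cons.2 ⟨⟨rfl, hv.2⟩,
        List.forall_mem_cons.2 ⟨⟨rfl, hv.2⟩,
        List.forall_mem_nil _⟩⟩⟩⟩⟩)
  have b2 := step_chk ρ ht cW2 cI2 (W ⊓ ker (RR ρ (Q4.tb cT0)) ⊓ ker (RR ρ (Q4.tb cT1)))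
    (fun v hv => hA v hv.1.1 _ rfl) fun v hv => (by
      unfold cB2
      exact List.forall_mem_nil _)
  have b3 := step_chk ρ ht cW3 cI3 (W ⊓ ker (RR ρ (Q4.tb cT0)) ⊓ ker (RR ρ (Q4.tb cT1)) ⊓ ker (RR ρ (Q4.tb cT2)))
    (fun v hv => hA v hv.1.1.1 _ rfl) fun v hv => (by
      unfold cB3
      exact List.forall_mem_cons.2 ⟨⟨rfl, hv.2⟩,
        List.forall_mem_cons.2 ⟨⟨rfl, hv.2⟩,
        List.forall_mem_cons.2 ⟨⟨rfl, hv.2⟩,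
        List.forall_mem_cons.2 ⟨⟨rfl, hv.2⟩,
        List.forall_mem_cons.2 ⟨⟨rfl, hv.2⟩,
        List.forall_mem_cons.2 ⟨⟨rfl, hv.2⟩,
        List.forall_mem_cons.2 ⟨⟨rfl, hv.2⟩,
        List.forall_mem_cons.2 ⟨⟨rfl, hv.2⟩,
        List.forall_mem_nil _⟩⟩⟩⟩⟩⟩⟩⟩)
  have b4 := step_chk ρ ht cW4 cI4 (W ⊓ ker (RR ρ (Q4.tb cT0)) ⊓ ker (RR ρ (Q4.tb cT1)) ⊓ ker (RR ρ (Q4.tb cT2)) ⊓ ker (RR ρ (Q4.tb cT3)))
    (fun v hv => hA v hv.1.1.1.1 _ rfl) fun v hv => (by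
      unfold cB4
      exact List.forall_mem_nil _)
  have b5 := step_chk ρ ht cW5 cI5 (W ⊓ ker (RR ρ (Q4.tb cT0)) ⊓ ker (RR ρ (Q4.tb cT1)) ⊓ ker (RR ρ (Q4.tb cT2)) ⊓ ker (RR ρ (Q4.tb cT3)) ⊓ ker (RR ρ (Q4.tb cT4)))
    (fun v hv => hA v hv.1.1.1.1.1 _ rfl) fun v hv => (by
      unfold cB5
      exact List.forall_mem_cons.2 ⟨⟨rfl, hv.1.1.2⟩,
        List.forall_mem_cons.2 ⟨⟨rfl, hv.1.1.2⟩,
        List.forall_mem_cons.2 ⟨⟨rfl, hv.1.1.2⟩,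
        List.forall_mem_cons.2 ⟨⟨rfl, hv.1.1.2⟩,
        List.forall_mem_cons.2 ⟨⟨rfl, hv.1.1.2⟩,
        List.forall_mem_cons.2 ⟨⟨rfl, hv.1.1.2⟩,
        List.forall_mem_cons.2 ⟨⟨rfl, hv.1.1.2⟩,
        List.forall_mem_cons.2 ⟨⟨rfl, hv.1.1.2⟩,
        List.forall_mem_cons.2 ⟨⟨rfl, hv.2⟩,
        List.forall_mem_cons.2 ⟨⟨rfl, hv.2⟩,
        List.forall_mem_cons.2 ⟨⟨rfl, hv.2⟩,
        List.forall_mem_cons.2 ⟨⟨rfl, hv.2⟩,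
        List.forall_mem_cons.2 ⟨⟨rfl, hv.2⟩,
        List.forall_mem_cons.2 ⟨⟨rfl, hv.2⟩,
        List.forall_mem_cons.2 ⟨⟨rfl, hv.2⟩,
        List.forall_mem_nil _⟩⟩⟩⟩⟩⟩⟩⟩⟩⟩⟩⟩⟩⟩⟩)
  have b6 : W ⊓ ker (RR ρ (Q4.tb cT0)) ⊓ ker (RR ρ (Q4.tb cT1)) ⊓ ker (RR ρ (Q4.tb cT2)) ⊓ ker (RR ρ (Q4.tb cT3)) ⊓ ker (RR ρ (Q4.tb cT4)) ⊓ ker (RR ρ (Q4.tb cT5)) = ⊥ := (Submodule.eq_bot_iff _).2 fun v hv => by
    have := RR_chk ρ cI6 v (hA v hv.1.1.1.1.1.1 _ rfl) ((by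
      unfold cB6
      exact List.forall_mem_cons.2 ⟨⟨rfl, hv.1.1.1.1.1.2⟩,
        List.forall_mem_cons.2 ⟨⟨rfl, hv.1.1.1.1.1.2⟩,
        List.forall_mem_cons.2 ⟨⟨rfl, hv.1.1.1.1.1.2⟩,
        List.forall_mem_cons.2 ⟨⟨rfl, hv.1.1.1.1.1.2⟩,
        List.forall_mem_cons.2 ⟨⟨rfl, hv.1.1.1.1.2⟩,
        List.forall_mem_cons.2 ⟨⟨rfl, hv.1.1.1.1.2⟩,
        List.forall_mem_cons.2 ⟨⟨rfl, hv.1.1.1.1.2⟩,
        List.forall_mem_cons.2 ⟨⟨rfl, hv.1.1.1.1.2⟩,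
        List.forall_mem_cons.2 ⟨⟨rfl, hv.1.1.1.1.2⟩,
        List.forall_mem_cons.2 ⟨⟨rfl, hv.1.1.1.2⟩,
        List.forall_mem_cons.2 ⟨⟨rfl, hv.1.1.1.2⟩,
        List.forall_mem_cons.2 ⟨⟨rfl, hv.1.1.1.2⟩,
        List.forall_mem_cons.2 ⟨⟨rfl, hv.1.1.1.2⟩,
        List.forall_mem_cons.2 ⟨⟨rfl, hv.1.1.1.2⟩,
        List.forall_mem_cons.2 ⟨⟨rfl, hv.1.1.1.2⟩,
        List.forall_mem_cons.2 ⟨⟨rfl, hv.1.1.1.2⟩,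
        List.forall_mem_cons.2 ⟨⟨rfl, hv.1.1.1.2⟩,
        List.forall_mem_cons.2 ⟨⟨rfl, hv.1.1.2⟩,
        List.forall_mem_cons.2 ⟨⟨rfl, hv.1.1.2⟩,
        List.forall_mem_cons.2 ⟨⟨rfl, hv.1.2⟩,
        List.forall_mem_cons.2 ⟨⟨rfl, hv.1.2⟩,
        List.forall_mem_cons.2 ⟨⟨rfl, hv.1.2⟩,
        List.forall_mem_cons.2 ⟨⟨rfl, hv.1.2⟩,
        List.forall_mem_cons.2 ⟨⟨rfl, hv.1.2⟩,
        List.forall_mem_cons.2 ⟨⟨rfl, hv.1.2⟩,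
        List.forall_mem_cons.2 ⟨⟨rfl, hv.1.2⟩,
        List.forall_mem_cons.2 ⟨⟨rfl, hv.2⟩,
        List.forall_mem_cons.2 ⟨⟨rfl, hv.2⟩,
        List.forall_mem_nil _⟩⟩⟩⟩⟩⟩⟩⟩⟩⟩⟩⟩⟩⟩⟩⟩⟩⟩⟩⟩⟩⟩⟩⟩⟩⟩⟩⟩))
    rwa [RR_tO] at this
  rw [b6, finrank_bot] at b5
  have n : ∀ a b : ℕ, a < 11 → b < 11 → a ≠ b → (a : K) ≠ b := fun a b ha hb hab e =>
    hab (CharP.natCast_injOn_Iio K 11 ha hb e)
  have c := finrank_three (ker (ρ (upm 1) - 1)) (ρ t⁻¹) (n 5 7 (by omega) (by omega) (by omega))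
    (n 5 2 (by omega) (by omega) (by omega)) (n 7 2 (by omega) (by omega) (by omega))
  have s := h _ (upm_ne_one (a := 1) (by decide))
  have a9 : fx ρ (upm 1) = finrank K (ker (ρ (upm 1) - 1)) := rfl
  unfold rk at r0 r1 r2 r3
  omega

/-- `SL₂(p)`, `p ≥ 7`, has an element with a large fixed space on every module. -/
theorem not_small_sl2 [FiniteDimensional K V] {p : ℕ} (hp : p.Prime) (h7 : 7 ≤ p)
    (ρ : Representation K (SpecialLinearGroup (Fin 2) (ZMod p)) V) : ¬ Small ρ := by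
  have := Fact.mk hp
  have h0 : p % 3 ≠ 0 := fun h => by
    have := (Nat.prime_dvd_prime_iff_eq Nat.prime_three hp).1 (Nat.dvd_of_mod_eq_zero h)
    omega
  by_cases h1 : p % 3 = 1
  · exact not_small_one p h1 ρ
  have h2 : p % 3 = 2 := by omega
  have h3 : p % 2 = 1 := hp.eq_two_or_odd.resolve_left (by omega)
  by_cases hK : (p : K) = 0
  · by_cases h11 : p = 11
    · subst h11
      have : CharP K 11 := (CharP.charP_iff_prime_eq_zero hp).2 hK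
      exact not_small_eleven ρ
    · exact not_small_def p hK h2 (by omega) ρ
  · exact not_small_cross p hK h2 (by omega) ρ

end Cfsg.Agent.H11.Fx
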