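import Cfsg.Agent.H11.FxCross

set_option autoImplicit false

/-! Simple modules of `SL₂(p)` in characteristic `p` are symmetric powers of the natural module. -/

namespace Cfsg.Agent.H11.Fx

open Module LinearMap Matrix

variable {K V : Type*} [Field K] [AddCommGroup V] [Module K V]

theorem span_pair_pow {A : Type*} [CommRing A] [Algebra K A] (a b : A) (k : ℕ) :
    Submodule.span K {a, b} ^ k =
      Submodule.span K (Set.range fun j : Fin (k + 1) => a ^ (j : ℕ) * b ^ (k - j)) := by
  refine le_antisymm ?_ (Submodule.span_le.2 ?_)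
  · induction k with
    | zero =>
      rw [pow_zero, Submodule.one_le]
      exact Submodule.subset_span ⟨0, by simp⟩
    | succ k ih =>
      rw [pow_succ]
      refine (mul_le_mul_left ih _).trans ?_
      rw [Submodule.span_mul_span, Submodule.span_le]
      rintro _ ⟨_, ⟨j, rfl⟩, y, rfl | rfl, rfl⟩
      · exact Submodule.subset_span ⟨j.succ, by simp; ring⟩
      · refine Submodule.subset_span ⟨j.castSucc, ?_⟩
        have := j.2
        simp only [Fin.val_castSucc]
        rw [show k + 1 - (j : ℕ) = k - j + 1 by omega]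
        ring
  · rintro _ ⟨j, rfl⟩
    have := j.2
    have e : Submodule.span K {a, b} ^ k =
        Submodule.span K {a, b} ^ (j : ℕ) * Submodule.span K {a, b} ^ (k - j) := by
      rw [← pow_add]; congr 1; omega
    rw [e]
    exact Submodule.mul_mem_mul (Submodule.pow_mem_pow _ (Submodule.subset_span (by simp)) _)
      (Submodule.pow_mem_pow _ (Submodule.subset_span (by simp)) _)

variable (p : ℕ) [hp : Fact p.Prime] (φ : ZMod p →+* K)

theorem coef_zero {k : ℕ} (hk : k < p) (a : Fin (k + 1) → K)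
    (h : ∀ s : ZMod p, ∑ j, a j * φ s ^ (j : ℕ) = 0) (j : Fin (k + 1)) : a j = 0 := by
  let f : Polynomial K := ∑ j : Fin (k + 1), Polynomial.monomial j (a j)
  have hf : f = 0 := by
    refine Polynomial.eq_zero_of_natDegree_lt_card_of_eval_eq_zero f φ.injective (fun s => ?_) ?_
    · simpa [f, Polynomial.eval_finsetSum] using h s
    · rw [ZMod.card]
      refine lt_of_le_of_lt (Polynomial.natDegree_sum_le_of_forall_le _ _ fun i _ => ?_) hk
      exact (Polynomial.natDegree_monomial_le _).trans (Nat.lt_succ_iff.1 i.2)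
  have := congrArg (fun g => Polynomial.coeff g j) hf
  simpa [f, Polynomial.coeff_monomial, Fin.val_inj] using this

/-- `diag(a⁻¹, a)` -/
def tm {F : Type*} [Field F] (a : Fˣ) : SpecialLinearGroup (Fin 2) F :=
  ⟨!![a⁻¹, 0; 0, a], by simp [det_fin_two]⟩

theorem tm_val {F : Type*} [Field F] (a : Fˣ) : (tm a).1 = !![(a : F)⁻¹, 0; 0, a] := rfl

theorem tm_mul {F : Type*} [Field F] (a b : Fˣ) : tm (a * b) = tm a * tm b := by
  ext i j
  fin_cases i <;> fin_cases j <;> simp [tm_val, Matrix.mul_apply, Fin.sum_univ_two, mul_comm]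

theorem tm_one {F : Type*} [Field F] : tm (1 : Fˣ) = 1 := by
  ext i j
  fin_cases i <;> fin_cases j <;> simp [tm_val]

theorem tm_pow {F : Type*} [Field F] (a : Fˣ) (n : ℕ) : tm (a ^ n) = tm a ^ n := by
  induction n with
  | zero => simp [tm_one]
  | succ n ih => rw [pow_succ, tm_mul, ih, pow_succ]

theorem tm_upm {F : Type*} [Field F] (a : Fˣ) (b : F) :
    tm a * upm b = upm ((a : F)⁻¹ ^ 2 * b) * tm a := by
  ext i j
  fin_cases i <;> fin_cases j <;> simp [tm_val, upm_val, Matrix.mul_apply, Fin.sum_univ_two]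
  field_simp

theorem bruhat_zero {F : Type*} [Field F] (g : SpecialLinearGroup (Fin 2) F) (h : g 1 0 = 0) :
    ∃ (a : Fˣ) (b : F), (a : F) = g 1 1 ∧ g = upm b * tm a := by
  have d := g.det_coe
  rw [det_fin_two, h, mul_zero, sub_zero] at d
  have h1 : g 1 1 ≠ 0 := right_ne_zero_of_mul_eq_one d
  refine ⟨Units.mk0 _ h1, g 0 1 / g 1 1, rfl, ?_⟩
  ext i j
  fin_cases i <;> fin_cases j <;> simp [tm_val, upm_val, Matrix.mul_apply, Fin.sum_univ_two, h, h1]
  exact eq_inv_of_mul_eq_one_left d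

theorem bruhat_ne {F : Type*} [Field F] (g : SpecialLinearGroup (Fin 2) F) (h : g 1 0 ≠ 0) :
    g = upm (g 0 0 / g 1 0) * tm (Units.mk0 _ h) * wm F * upm (g 1 1 / g 1 0) := by
  have d := g.det_coe
  rw [det_fin_two] at d
  ext i j
  fin_cases i <;> fin_cases j <;>
    simp [tm_val, upm_val, wm_val, Matrix.mul_apply, Fin.sum_univ_two, h] <;> field_simp
  linear_combination -d

theorem exists_prim : ∃ g : (ZMod p)ˣ, (∀ a : (ZMod p)ˣ, ∃ n : ℕ, g ^ n = a) ∧
    IsPrimitiveRoot (φ g) (p - 1) := by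
  obtain ⟨g, hg⟩ := IsCyclic.exists_monoid_generator (α := (ZMod p)ˣ)
  refine ⟨g, hg, ?_⟩
  refine IsPrimitiveRoot.map_of_injective ?_ φ.injective
  rw [IsPrimitiveRoot.coe_units_iff, IsPrimitiveRoot.iff_orderOf,
    orderOf_eq_card_of_forall_mem_powers hg, Nat.card_eq_fintype_card, ZMod.card_units]

variable {ρ : Representation K (SpecialLinearGroup (Fin 2) (ZMod p)) V}

include φ in
theorem up_nilp [Nontrivial V] : (ρ (upm 1) - 1) ^ p = 0 := by
  have : CharP K p := charP_of_injective_ringHom φ.injective p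
  have : CharP (End K V) p := charP_of_injective_algebraMap (algebraMap K (End K V)).injective p
  rw [sub_pow_char_of_commute _ (Commute.one_right _), ← map_pow, upm_pow, ZMod.natCast_self,
    zero_mul, upm_zero, map_one, one_pow, sub_self]

theorem upm_eq_pow (b : ZMod p) : upm b = upm 1 ^ b.val := by
  rw [upm_pow, ZMod.natCast_zmod_val, mul_one]

variable [FiniteDimensional K V] [IsAlgClosed K] [Nontrivial V]

theorem exists_covector : ∃ (l : V →ₗ[K] K) (k : ℕ), l ≠ 0 ∧ k < p - 1 ∧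
    (∀ b y, l (ρ (upm b) y) = l y) ∧ ∀ (a : (ZMod p)ˣ) y, l (ρ (tm a) y) = φ a ^ k * l y := by
  obtain ⟨g, hg, hprim⟩ := exists_prim p φ
  have h2 := hp.out.two_le
  let S : Submodule K (Dual K V) := ⨅ b, ker ((ρ (upm b)).dualMap - 1)
  have mS : ∀ l, l ∈ S ↔ ∀ b y, l (ρ (upm b) y) = l y := fun l => by
    simp only [S, Submodule.mem_iInf, mem_ker, LinearMap.sub_apply, sub_eq_zero, End.one_apply,
      LinearMap.ext_iff, dualMap_apply]
  have hS : ∀ l ∈ S, (ρ (tm g)).dualMap l ∈ S := fun l hl => (mS _).2 fun b y => by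
    rw [dualMap_apply, dualMap_apply, ← End.mul_apply, ← map_mul, tm_upm, map_mul, End.mul_apply,
      (mS l).1 hl]
  have : Nontrivial S := by
    obtain ⟨l, hl, hl'⟩ := Submodule.exists_le_ker_of_lt_top (range (ρ (upm 1) - 1))
      (lt_top_iff_ne_top.2 fun e => by
        have := ((End.isUnit_iff _).2 ⟨ker_eq_bot.1 (ker_eq_bot_iff_range_eq_top.2 e),
          range_eq_top.1 e⟩).pow p
        rw [up_nilp p φ] at this
        exact not_isUnit_zero this)
    have l1 : ∀ y, l (ρ (upm 1) y) = l y := fun y => by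
      have := hl' (mem_range_self _ y)
      rwa [mem_ker, LinearMap.sub_apply, map_sub, sub_eq_zero] at this
    refine Submodule.nontrivial_iff_ne_bot.2 ((Submodule.ne_bot_iff _).2
      ⟨l, (mS l).2 fun b => ?_, hl⟩)
    rw [upm_eq_pow]
    induction b.val with
    | zero => simp
    | succ n ih => intro y; rw [pow_succ', map_mul, End.mul_apply, l1, ih]
  obtain ⟨α, hα⟩ := End.exists_eigenvalue (K := K) (V := S) ((ρ (tm g)).dualMap.restrict hS)
  obtain ⟨⟨l, hl⟩, hy, hy0⟩ := hα.exists_hasEigenvector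
  have l0 : l ≠ 0 := fun e => hy0 (Subtype.ext e)
  have l1 : ∀ y, l (ρ (tm g) y) = α * l y := fun y =>
    congr($(congrArg Subtype.val (End.mem_eigenspace_iff.1 hy)) y)
  have ln : ∀ (n : ℕ) y, l (ρ (tm (g ^ n)) y) = α ^ n * l y := fun n => by
    induction n with
    | zero => simp [tm_one]
    | succ n ih => intro y; rw [pow_succ', tm_mul, map_mul, End.mul_apply, l1, ih]; ring
  have αp : α ^ (p - 1) = 1 := by
    obtain ⟨y, hy⟩ := DFunLike.ne_iff.1 l0
    have := ln (p - 1) y
    rw [ZMod.units_pow_card_sub_one_eq_one, tm_one, map_one, End.one_apply] at this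
    exact mul_right_cancel₀ hy (this.symm.trans (one_mul _).symm)
  have : NeZero (p - 1) := ⟨by omega⟩
  obtain ⟨k, hk, rfl⟩ := hprim.eq_pow_of_pow_eq_one αp
  refine ⟨l, k, l0, hk, (mS l).1 hl, fun a y => ?_⟩
  obtain ⟨n, rfl⟩ := hg a
  rw [ln, Units.val_pow_eq_pow_val, map_pow, ← pow_mul, ← pow_mul, mul_comm k]

theorem exists_model (hi : Irr ρ) : ∃ (l : V →ₗ[K] K) (k : ℕ) (v : V), l ≠ 0 ∧ k < p ∧
    ∀ g, l (ρ g v) = φ (g 1 0) ^ k := by
  obtain ⟨l, k, l0, hk, lu, lt⟩ := exists_covector p φ (ρ := ρ)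
  have h2 := hp.out.two_le
  have form : ∀ v, (∀ b, ρ (upm b) v = v) → ∀ g, l (ρ g v) =
      if g 1 0 = 0 then φ (g 1 1) ^ k * l v else φ (g 1 0) ^ k * l (ρ (wm _) v) := fun v hv g => by
    split_ifs with h
    · obtain ⟨a, b, ha, e⟩ := bruhat_zero g h
      rw [← ha, e, map_mul, End.mul_apply, lu, lt]
    · conv_lhs => rw [bruhat_ne g h]
      simp only [map_mul, End.mul_apply]
      rw [lu, lt, hv, Units.val_mk0]
  have good : ∀ v, (∀ b, ρ (upm b) v = v) → l v = 0 → l (ρ (wm _) v) ≠ 0 →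
      ∃ (k : ℕ) (v : V), l ≠ 0 ∧ k < p ∧ ∀ g, l (ρ g v) = φ (g 1 0) ^ k := fun v hv a b => by
    refine ⟨if k = 0 then p - 1 else k, (l (ρ (wm _) v))⁻¹ • v, l0, by split_ifs <;> omega,
      fun g => ?_⟩
    rw [map_smul, map_smul, form v hv g, smul_eq_mul]
    split_ifs with h1 h2 h2
    · rw [a, h1, map_zero, zero_pow (n := p - 1) (by omega)]; simp
    · rw [a, h1, map_zero, zero_pow h2]; simp
    · rw [h2, ← map_pow φ _ (p - 1), ZMod.pow_card_sub_one_eq_one h1, map_one]; field_simp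
    · field_simp
  obtain ⟨v, hv, v0⟩ : ∃ v ∈ ker (ρ (upm 1) - 1), v ≠ 0 := (Submodule.ne_bot_iff _).1 fun e => by
    have := ((End.isUnit_iff _).2 ⟨ker_eq_bot.1 e,
      range_eq_top.1 (ker_eq_bot_iff_range_eq_top.1 e)⟩).pow p
    rw [up_nilp p φ] at this
    exact not_isUnit_zero this
  have v1 : ρ (upm 1) v = v := sub_eq_zero.1 hv
  have vu : ∀ b, ρ (upm b) v = v := fun b => by
    rw [upm_eq_pow]
    induction b.val with
    | zero => simp
    | succ n ih => rw [pow_succ, map_mul, End.mul_apply, v1, ih]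
  refine ⟨l, ?_⟩
  by_cases ha : l v = 0
  · refine good v vu ha fun hb => v0 (hi.eq_zero_of_forall l0 fun g => ?_)
    rw [form v vu g, ha, hb]; simp
  set v' := ∑ e : ZMod p, ρ (upm e * wm _) v with hv'
  have b1 : l (ρ (wm _) v') = (-1) ^ k * l v - 0 ^ k * l (ρ (wm _) v) := by
    have e1 : ∀ e : ZMod p, l (ρ (wm _) (ρ (upm e * wm _) v)) = φ e ^ k * l (ρ (wm _) v) +
        if e = 0 then (-1) ^ k * l v - 0 ^ k * l (ρ (wm _) v) else 0 := fun e => by
      rw [← End.mul_apply, ← map_mul, form v vu]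
      have a : (wm (ZMod p) * (upm e * wm (ZMod p))).1 1 0 = e := by
        simp [upm_val, wm_val, Matrix.mul_apply, Fin.sum_univ_two]
      have b : (wm (ZMod p) * (upm e * wm (ZMod p))).1 1 1 = -1 := by
        simp [upm_val, wm_val, Matrix.mul_apply, Fin.sum_univ_two]
      rw [a, b]
      split_ifs with h
      · simp [h]
      · simp
    rw [hv', map_sum, map_sum, Finset.sum_congr rfl fun e _ => e1 e, Finset.sum_add_distrib,
      ← Finset.sum_mul]
    simp only [← map_pow φ, ← map_sum φ]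
    rw [FiniteField.sum_pow_lt_card_sub_one _ k (by rwa [ZMod.card])]
    simp
  by_cases hb : l (ρ (wm _) v') = 0
  · rw [b1, sub_eq_zero] at hb
    obtain rfl : k = 0 := by
      by_contra h
      rw [zero_pow h, zero_mul] at hb
      exact mul_ne_zero (pow_ne_zero _ (by simp)) ha hb
    refine ⟨0, (l v)⁻¹ • v, l0, by omega, fun g => ?_⟩
    simp only [pow_zero, one_mul] at hb
    rw [map_smul, map_smul, form v vu g, ← hb]
    simp [ha]
  refine good v' (fun b => ?_) ?_ hb
  · rw [hv', map_sum]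
    refine Fintype.sum_equiv (Equiv.addLeft b) _ _ fun e => ?_
    rw [← End.mul_apply, ← map_mul, ← mul_assoc, ← upm_add, Equiv.coe_addLeft]
  · rw [hv', map_sum]
    simp only [map_mul, End.mul_apply, lu, Finset.sum_const, Finset.card_univ, ZMod.card,
      nsmul_eq_mul]
    rw [← map_natCast φ, ZMod.natCast_self, map_zero, zero_mul]

theorem exists_bases (hi : Irr ρ) : ∃ (k : ℕ), k < p ∧
    ∀ (α β γ δ : K), α * δ - β * γ ≠ 0 → ∃ b : Basis (Fin (k + 1)) K V,
      ∀ (h : SpecialLinearGroup (Fin 2) (ZMod p)) (r s : K),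
        φ (h 0 0) * α + φ (h 0 1) * β = r * α → φ (h 1 0) * α + φ (h 1 1) * β = r * β →
        φ (h 0 0) * γ + φ (h 0 1) * δ = s * γ → φ (h 1 0) * γ + φ (h 1 1) * δ = s * δ →
        ∀ j, ρ h (b j) = (r ^ (j : ℕ) * s ^ (k - j)) • b j := by
  obtain ⟨l, k, v, l0, hk, hv⟩ := exists_model p φ hi
  refine ⟨k, hk, fun α β γ δ hdet => ?_⟩
  let Φ : V →ₗ[K] (SpecialLinearGroup (Fin 2) (ZMod p) → K) := LinearMap.pi fun g => l ∘ₗ ρ g
  have Φa : ∀ y g, Φ y g = l (ρ g y) := fun _ _ => rfl
  have inj : Function.Injective Φ := (injective_iff_map_eq_zero _).2 fun y h =>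
    hi.eq_zero_of_forall l0 fun g => congrFun h g
  let c : SpecialLinearGroup (Fin 2) (ZMod p) → K := fun g => φ (g 1 0)
  let d : SpecialLinearGroup (Fin 2) (ZMod p) → K := fun g => φ (g 1 1)
  have orb : ∀ h, Φ (ρ h v) = (φ (h 0 0) • c + φ (h 1 0) • d) ^ k := fun h => funext fun g => by
    rw [Φa, ← End.mul_apply, ← map_mul, hv]
    simp [c, d, Matrix.mul_apply, Fin.sum_univ_two, mul_comm]
  have v0 : v ≠ 0 := fun e => by
    have := hv (wm _)
    simp [e, wm_val] at this
  have R1 : range Φ ≤ Submodule.span K {c, d} ^ k := by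
    have e := hi.range_orbit v0
    rw [Finsupp.range_linearCombination] at e
    rw [range_eq_map, ← e, Submodule.map_span, Submodule.span_le]
    rintro _ ⟨_, ⟨h, rfl⟩, rfl⟩
    rw [orb]
    exact Submodule.pow_mem_pow _ (Submodule.mem_span_pair.2 ⟨_, _, rfl⟩) _
  have R2 : Submodule.span K {c, d} ^ k ≤ range Φ := by
    rw [span_pair_pow, Submodule.span_le]
    rintro _ ⟨j, rfl⟩
    refine (Subspace.forall_mem_dualAnnihilator_apply_eq_zero_iff _ _).1 fun μ hμ => ?_
    have := coef_zero p φ hk (fun j => (k.choose j : K) * μ (c ^ (j : ℕ) * d ^ (k - j)))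
      (fun s => ?_) j
    · refine (mul_eq_zero.1 this).resolve_left ?_
      rw [← map_natCast φ, map_eq_zero, ZMod.natCast_eq_zero_iff]
      have hj := j.2
      intro hd
      have := (Nat.Prime.dvd_factorial hp.out).1 (hd.trans ⟨(j : ℕ).factorial * (k - j).factorial,
        by rw [← mul_assoc, Nat.choose_mul_factorial_mul_factorial (by omega)]⟩)
      omega
    · have e := (Submodule.mem_dualAnnihilator μ).1 hμ _ (mem_range_self Φ (ρ (upm s * wm _) v))
      have a : (upm s * wm (ZMod p)).1 0 0 = s := by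
        simp [upm_val, wm_val, Matrix.mul_apply, Fin.sum_univ_two]
      have b : (upm s * wm (ZMod p)).1 1 0 = 1 := by
        simp [upm_val, wm_val, Matrix.mul_apply, Fin.sum_univ_two]
      rw [orb, a, b, map_one, one_smul, add_pow, map_sum, ← Fin.sum_univ_eq_sum_range
        (fun m => μ ((φ s • c) ^ m * d ^ (k - m) * (k.choose m : _)))] at e
      rw [← e]
      refine Finset.sum_congr rfl fun j _ => ?_
      rw [smul_pow, smul_mul_assoc, smul_mul_assoc, map_smul, mul_comm _ (k.choose j : _ → K),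
        ← nsmul_eq_mul (k.choose j) (c ^ (j : ℕ) * _), map_nsmul, smul_eq_mul, nsmul_eq_mul]
      ring
  have R := le_antisymm R1 R2
  have li : LinearIndependent K fun j : Fin (k + 1) => c ^ (j : ℕ) * d ^ (k - j) :=
    Fintype.linearIndependent_iff.2 fun a ha => coef_zero p φ hk a fun s => by
      obtain ⟨g, g0, g1⟩ : ∃ g : SpecialLinearGroup (Fin 2) (ZMod p), g 1 0 = s ∧ g 1 1 = 1 :=
        ⟨⟨!![1, 0; s, 1], by simp [det_fin_two]⟩, rfl, rfl⟩
      have := congrFun ha g
      simpa [c, d, g0, g1] using this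
  have dim : Fintype.card (Fin (k + 1)) = finrank K V := by
    rw [← finrank_range_of_inj inj, R, span_pair_pow, finrank_span_eq_card li]
  have sp : Submodule.span K {c, d} = Submodule.span K {α • c + β • d, γ • c + δ • d} := by
    refine le_antisymm (Submodule.span_le.2 ?_) (Submodule.span_le.2 ?_)
    · rintro _ (rfl | rfl)
      · refine Submodule.mem_span_pair.2 ⟨δ * (α * δ - β * γ)⁻¹, -β * (α * δ - β * γ)⁻¹, ?_⟩
        ext g
        simp only [Pi.add_apply, Pi.smul_apply, smul_eq_mul]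
        linear_combination c g * mul_inv_cancel₀ hdet
      · refine Submodule.mem_span_pair.2 ⟨-γ * (α * δ - β * γ)⁻¹, α * (α * δ - β * γ)⁻¹, ?_⟩
        ext g
        simp only [Pi.add_apply, Pi.smul_apply, smul_eq_mul]
        linear_combination d g * mul_inv_cancel₀ hdet
    · rintro _ (rfl | rfl) <;> exact Submodule.mem_span_pair.2 ⟨_, _, rfl⟩
  rw [sp, span_pair_pow] at R
  choose b hb using fun j : Fin (k + 1) => (show (α • c + β • d) ^ (j : ℕ) *
    (γ • c + δ • d) ^ (k - j) ∈ range Φ from R ▸ Submodule.subset_span ⟨j, rfl⟩)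
  have top : ⊤ ≤ Submodule.span K (Set.range b) := by
    rw [← Submodule.map_le_map_iff_of_injective inj, ← range_eq_map, R, Submodule.map_span,
      ← Set.range_comp]
    exact le_of_eq (congrArg _ (congrArg _ (funext fun j => (hb j).symm)))
  refine ⟨basisOfTopLeSpanOfCardEqFinrank b top dim, fun h r s e1 e2 e3 e4 j => ?_⟩
  rw [coe_basisOfTopLeSpanOfCardEqFinrank]
  refine inj (funext fun g => ?_)
  rw [Φa, ← End.mul_apply, ← map_mul, ← Φa, map_smul, hb]
  have a1 : α * c (g * h) + β * d (g * h) = r * (α * c g + β * d g) := by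
    simp only [c, d, Matrix.SpecialLinearGroup.coe_mul, Matrix.mul_apply, Fin.sum_univ_two, map_add,
      map_mul]
    linear_combination φ (g 1 0) * e1 + φ (g 1 1) * e2
  have a2 : γ * c (g * h) + δ * d (g * h) = s * (γ * c g + δ * d g) := by
    simp only [c, d, Matrix.SpecialLinearGroup.coe_mul, Matrix.mul_apply, Fin.sum_univ_two, map_add,
      map_mul]
    linear_combination φ (g 1 0) * e3 + φ (g 1 1) * e4
  simp only [Pi.mul_apply, Pi.pow_apply, Pi.add_apply, Pi.smul_apply, smul_eq_mul, a1, a2, mul_pow]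
  ring

end Cfsg.Agent.H11.Fx
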